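import Cfsg.Agent.TwoF.XL.Abs
import Cfsg.Agent.TwoF.Gen.BCub
import Cfsg.Agent.TwoF.XE.Num
import Cfsg.Agent.H915.Gs.Base
import Cfsg.Agent.H95.StemCover

/-!
# TwoF / XL: generation by conjugates and lifts of covering groups (helper1)

* `cod_le_of_reach`, `finrank_le_of_reach`: from `H915.Gs.Reach (φ a) k J` to `cod`.
* `Lf K π c ι`: `ι : G →* Y` maps onto `K` and lies above `c : G →* S`; `Lf.conj`: elements of `Y` act on `G`.
* `Cen ρ ι`: the kernel of `ρ ∘ ι` is central.
-/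

set_option autoImplicit false

namespace Cfsg.Agent.TwoF.XL

open Module Gen
open scoped commutatorElement
open Cfsg.Agent.H915.Gs (Reach Gn)

section Grp

variable {Y : Type*} [Group Y]

theorem comm_mul_cen {a b z w : Y} (_ : z * a = a * z) (h2 : z * b = b * z) (h3 : w * a = a * w)
    (_ : w * b = b * w) (h5 : z * w = w * z) : ⁅a * z, b * w⁆ = ⁅a, b⁆ := by
  have e1 : a * z * (b * w) = a * b * (z * w) := by
    rw [mul_assoc, ← mul_assoc z, h2]
    simp only [mul_assoc]
  have e2 : b * w * (a * z) = b * a * (z * w) := by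
    rw [mul_assoc, ← mul_assoc w, h3, h5]
    simp only [mul_assoc]
  calc ⁅a * z, b * w⁆ = a * z * (b * w) * (b * w * (a * z))⁻¹ := by rw [commutatorElement_def]; group
    _ = ⁅a, b⁆ := by rw [e1, e2, commutatorElement_def]; group

/-- two homomorphisms from a perfect group that agree modulo the centre of a group containing the images -/
theorem hom_eq_of_cen {G : Type*} [Group G] (hG : commutator G = ⊤) {K : Subgroup Y} (f g : G →* Y)
    (hf : ∀ x, f x ∈ K) (hg : ∀ x, g x ∈ K) (h : ∀ x, (f x)⁻¹ * g x ∈ Subgroup.centralizer (K : Set Y)) :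
    f = g := by
  have h1 : commutator G ≤ f.eqLocus g := by
    rw [commutator_def, Subgroup.commutator_le]
    intro a _ b _
    show f ⁅a, b⁆ = g ⁅a, b⁆
    have ea : g a = f a * ((f a)⁻¹ * g a) := by group
    have eb : g b = f b * ((f b)⁻¹ * g b) := by group
    rw [map_commutatorElement, map_commutatorElement, ea, eb, comm_mul_cen (h a _ (hf a)).symm (h a _ (hf b)).symm
      (h b _ (hf a)).symm (h b _ (hf b)).symm (h b _ (mul_mem (inv_mem (hf a)) (hg a)))]
  exact MonoidHom.ext fun x => h1 (hG ▸ Subgroup.mem_top x)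

end Grp

variable {p : ℕ} [Fact p.Prime] {Y : Type} [Group Y] {V : Type} [AddCommGroup V] [Module (ZMod p) V]
  {K : Subgroup Y} {ρ : Representation (ZMod p) Y V} {S : Type} [Group S] {π : K →* S} {φ : Y →* MulAut S}

section Reach

/-- the elements of `K` above `J` -/
def up (π : K →* S) (J : Subgroup S) : Subgroup Y := (J.comap π).map K.subtype

omit [Fact p.Prime] in
theorem mem_up {J : Subgroup S} {x : K} : (x : Y) ∈ up π J ↔ π x ∈ J :=
  ⟨fun ⟨y, hy, e⟩ => (Subtype.ext e : y = x) ▸ hy, fun h => ⟨x, h, rfl⟩⟩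

theorem up_top : up π ⊤ = K := by rw [up, Subgroup.comap_top, ← MonoidHom.range_eq_map, Subgroup.range_subtype]

/-- `k` conjugates of `a` generate a group containing the commutators of the preimage of `J` -/
theorem exists_gen_of_reach (F : Frm K π φ) {a : Y} {k : ℕ} {J : Subgroup S} (h : Reach (φ a) k J) :
    ∃ g : Fin k → Y, ⁅up π J, up π J⁆ ≤
      ⨆ i ∈ (Finset.univ : Finset (Fin k)), (Subgroup.zpowers a).map (MulAut.conj (g i)).toMonoidHom := by
  obtain ⟨f, hf⟩ := h
  choose g hg using fun i => F.surj (f i)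
  refine ⟨fun i => g i, ?_⟩
  set M := ⨆ i ∈ (Finset.univ : Finset (Fin k)), (Subgroup.zpowers a).map (MulAut.conj (g i : Y)).toMonoidHom
  have h1 : Gn (φ a) f ≤ M.map φ := by
    rw [Gn, Subgroup.closure_le]
    rintro _ ⟨i, rfl⟩
    refine ⟨(g i : Y) * a * (g i : Y)⁻¹, ?_, ?_⟩
    · exact (le_iSup₂_of_le (f := fun j (_ : j ∈ (Finset.univ : Finset (Fin k))) =>
        (Subgroup.zpowers a).map (MulAut.conj (g j : Y)).toMonoidHom) i (Finset.mem_univ i) le_rfl)
        ⟨a, Subgroup.mem_zpowers a, rfl⟩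
    · rw [map_mul, map_mul, map_inv, F.φ_coe, hg]
  have h2 : ∀ x ∈ up π J, ∃ m ∈ M, m ∈ K ∧ ∃ z ∈ Subgroup.centralizer (K : Set Y), x = m * z := by
    rintro _ ⟨x, hx, rfl⟩
    obtain ⟨m, hm, e⟩ := h1 (hf ⟨π x, hx, rfl⟩)
    have h3 : m⁻¹ * x ∈ Subgroup.centralizer (K : Set Y) := by
      rw [← F.φ_eq_one_iff, map_mul, map_inv, e, F.φ_coe, inv_mul_cancel]
    refine ⟨m, hm, ?_, _, h3, by simp⟩
    have : m = x * (m⁻¹ * x)⁻¹ := by group
    rw [this]
    exact mul_mem x.2 (inv_mem (F.cent h3))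
  rw [Subgroup.commutator_le]
  intro x hx y hy
  obtain ⟨m, hm, hmK, z, hz, rfl⟩ := h2 x hx
  obtain ⟨m', hm', hmK', z', hz', rfl⟩ := h2 y hy
  rw [comm_mul_cen (hz _ hmK).symm (hz _ hmK').symm (hz' _ hmK).symm (hz' _ hmK').symm (hz' _ (F.cent hz))]
  exact mul_mem (mul_mem (mul_mem hm hm') (inv_mem hm)) (inv_mem hm')

variable [Finite V]

theorem cod_le_of_reach (F : Frm K π φ) {a : Y} {k : ℕ} {J : Subgroup S} (h : Reach (φ a) k J) {B : Subgroup Y}
    (hB : B ≤ ⁅up π J, up π J⁆) : cod ρ B ≤ k * cod ρ (Subgroup.zpowers a) := by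
  obtain ⟨g, hg⟩ := exists_gen_of_reach F h
  refine (cod_mono (hB.trans hg)).trans ((cod_biSup_le _ _).trans ?_)
  simp only [cod_conj, Finset.sum_const, Finset.card_univ, Fintype.card_fin, smul_eq_mul, le_refl]

/-- **generation by `k` conjugates** -/
theorem finrank_le_of_reach [Finite Y] (H : Sit p K ρ π φ) {a : Y} {k : ℕ} (h : Reach (φ a) k ⊤) :
    finrank (ZMod p) V ≤ k * cod ρ (Subgroup.zpowers a) := by
  rw [← H.toStp.cod_of_le le_rfl]
  refine cod_le_of_reach H.toFrm h ?_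
  rw [up_top]
  intro x hx
  have h1 : (⟨x, hx⟩ : K) ∈ commutator K := H.toStp.perfect.commutator_eq_top ▸ Subgroup.mem_top _
  have h2 := Subgroup.mem_map_of_mem K.subtype h1
  rwa [commutator_def, Subgroup.map_commutator, ← MonoidHom.range_eq_map, Subgroup.range_subtype] at h2

omit [Finite V] in
theorem orderOf_φ [Finite Y] (H : Sit p K ρ π φ) {a : Y} (ha : a ^ p = 1) (h1 : a ≠ 1) : orderOf (φ a) = p :=
  orderOf_eq_prime (by rw [← map_pow, ha, map_one]) fun e =>
    h1 (H.toStp.eq_one_of_φ H.toFrm (n := 1) (by rw [pow_one, ha]) e)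

omit [Finite V] in
theorem prime_φ [Finite Y] (H : Sit p K ρ π φ) {a : Y} (ha : a ^ p = 1) (h1 : a ≠ 1) : (orderOf (φ a)).Prime :=
  (orderOf_φ H ha h1).symm ▸ Fact.out

omit [Finite V] in
/-- the rank and the codimension of an offender -/
theorem off_data [Finite Y] (H : Sit p K ρ π φ) {A : Subgroup Y} (hA : Off p ρ A) {m : ℕ}
    (hm : ∀ E : Subgroup (MulAut S), IsElementaryAbelian p E → Nat.card E ≤ p ^ m) :
    ∃ r, 0 < r ∧ r ≤ m ∧ Nat.card A = p ^ r ∧ cod ρ A ≤ 2 * r := by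
  obtain ⟨r, h1, h2, h3⟩ := hA.exists_card
  refine ⟨r, h1, ?_, h2, h3⟩
  have := hm _ (elemAb_map hA.1 φ)
  rwa [H.toStp.card_map H.toFrm (elemAb_isPGroup hA.1), h2,
    Nat.pow_le_pow_iff_right (Fact.out : p.Prime).one_lt] at this

/-- no offender from the rank, the number of generating conjugates and the minimal dimension -/
theorem noOff_of_reach {k m d : ℕ} (hk : ∀ x : MulAut S, orderOf x = p → Reach x k ⊤)
    (hm : ∀ E : Subgroup (MulAut S), IsElementaryAbelian p E → Nat.card E ≤ p ^ m) (hd : LB p S d)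
    (h : k * (2 * m) < d) : NoOff p S := by
  refine noOff_of_sit fun Y _ _ V _ _ _ K ρ π φ H A hA => ?_
  obtain ⟨r, -, h2, -, h4⟩ := off_data H hA hm
  obtain ⟨a, ha, h1⟩ := (Subgroup.bot_or_exists_ne_one A).resolve_left hA.2.1
  have h5 := finrank_le_of_reach H (hk _ (orderOf_φ H (hA.1.2 a ha) h1))
  have h6 := hd.le H
  have h7 := cod_le_of_mem (ρ := ρ) ha
  have h8 : k * cod ρ (Subgroup.zpowers a) ≤ k * (2 * m) := Nat.mul_le_mul_left _ (by omega)
  omega

end Reach

section Lift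

variable {G : Type*} [Group G] {c : G →* S} {ι : G →* Y}

/-- `ι` maps `G` onto `K` and lies above `c` -/
structure Lf (K : Subgroup Y) (π : K →* S) (c : G →* S) (ι : G →* Y) : Prop where
  mem : ∀ g, ι g ∈ K
  proj : ∀ g, π ⟨ι g, mem g⟩ = c g
  surj : ∀ x ∈ K, ∃ g, ι g = x

omit [Fact p.Prime] in
theorem Lf.φ_ι (L : Lf K π c ι) (F : Frm K π φ) (g : G) : φ (ι g) = MulAut.conj (c g) := by
  rw [← L.proj g]
  exact F.φ_coe ⟨ι g, L.mem g⟩

omit [Fact p.Prime] in
/-- **the action of `Y` on the cover** -/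
theorem Lf.conj (L : Lf K π c ι) (F : Frm K π φ) [K.Normal] (hG : commutator G = ⊤) {y : Y} {α : G →* G}
    (h : ∀ g, c (α g) = φ y (c g)) (g : G) : y * ι g * y⁻¹ = ι (α g) := by
  have h0 : ∀ x, y * ι x * y⁻¹ ∈ K := fun x => Subgroup.Normal.conj_mem inferInstance _ (L.mem x) y
  have := hom_eq_of_cen hG (K := K) ((MulAut.conj y).toMonoidHom.comp ι) (ι.comp α) h0 (fun x => L.mem _) fun x => by
    have h1 := F.conj y ⟨ι x, L.mem x⟩ ⟨_, h0 x⟩ rfl
    have h2 : π ((⟨_, h0 x⟩ : K)⁻¹ * ⟨ι (α x), L.mem _⟩) = 1 := by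
      rw [map_mul, map_inv, ← h1, L.proj, L.proj, h, inv_mul_cancel]
    exact F.π_eq_one_iff.1 h2
  exact DFunLike.congr_fun this g

omit [Fact p.Prime] in
theorem Lf.comp (L : Lf K π c ι) (β : G ≃* G) : Lf K π (c.comp β.toMonoidHom) (ι.comp β.toMonoidHom) where
  mem g := L.mem _
  proj g := L.proj _
  surj x hx := by
    obtain ⟨g, rfl⟩ := L.surj x hx
    exact ⟨β.symm g, congrArg ι (β.apply_symm_apply g)⟩

omit [Fact p.Prime] in
theorem Lf.range (L : Lf K π c ι) : ι.range = K :=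
  le_antisymm (by rintro _ ⟨g, rfl⟩; exact L.mem g) L.surj

omit [Fact p.Prime] in
theorem exists_lf_of_hom {f : G →* K} (hf : Function.Surjective f) (h : ∀ g, π (f g) = c g) :
    Lf K π c (K.subtype.comp f) where
  mem g := (f g).2
  proj := h
  surj x hx := by
    obtain ⟨g, hg⟩ := hf ⟨x, hx⟩
    exact ⟨g, congrArg Subtype.val hg⟩

/-- the lift from a universal cover -/
theorem exists_lf [Finite Y] [Finite G] (H : Sit p K ρ π φ) (hG : commutator G = ⊤) (hc : Function.Surjective c)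
    (hk : c.ker ≤ Subgroup.center G) {A : Type*} [CommGroup A] [Finite A] (hA : HasSchurMultiplier S A)
    (hcard : Nat.card c.ker = Nat.card A) : ∃ ι : G →* Y, Lf K π c ι := by
  have : Finite S := Finite.of_surjective c hc
  have hS : commutator S = ⊤ := by
    rw [commutator_def, ← Subgroup.map_top_of_surjective c hc, ← Subgroup.map_commutator, ← commutator_def, hG]
  obtain ⟨f, h1, h2⟩ := H95.StemCover.exists_cover hS hA c (H95.StemCover.isStem hG hc hk) hcard π
    (H.toFrm.stem H.toStp.perfect)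
  exact ⟨_, exists_lf_of_hom h1 h2⟩

omit [Fact p.Prime] in
/-- the lift if `K` has trivial centre -/
theorem exists_lf_of_center (F : Frm K π φ) (hZ : Subgroup.center K = ⊥) (hc : Function.Surjective c) :
    ∃ ι : G →* Y, Lf K π c ι := by
  let e := MulEquiv.ofBijective π ⟨(MonoidHom.ker_eq_bot_iff π).1 (F.ker_π.trans hZ), F.surj⟩
  exact ⟨_, exists_lf_of_hom (f := e.symm.toMonoidHom.comp c) (e.symm.surjective.comp hc)
    fun g => e.apply_symm_apply (c g)⟩

end Lift

section Cen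

variable {k : Type*} [Field k] {Y : Type*} [Group Y] {V : Type*} [AddCommGroup V] [Module k V]
  {G : Type*} [Group G]

/-- the kernel of `ρ ∘ ι` is central -/
def Cen (ρ : Representation k Y V) (ι : G →* Y) : Prop := ∀ g, ρ (ι g) = 1 → g ∈ Subgroup.center G

theorem Cen.comp {ρ : Representation k Y V} {ι : G →* Y} (h : Cen ρ ι) (β : G ≃* G) :
    Cen ρ (ι.comp β.toMonoidHom) := fun g hg => by
  have := h _ hg
  rw [Subgroup.mem_center_iff] at this ⊢
  intro x
  exact β.injective (by rw [map_mul, map_mul]; exact this _)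

theorem Cen.ker {ρ : Representation k Y V} {ι : G →* Y} (h : Cen ρ ι) {g : G} (hg : ι g = 1) :
    g ∈ Subgroup.center G := h g (by rw [hg, map_one])

end Cen

theorem Lf.cen {G : Type*} [Group G] {c : G →* S} {ι : G →* Y} (L : Lf K π c ι) (hρ : Function.Injective ρ)
    (hk : c.ker ≤ Subgroup.center G) : Cen ρ ι := fun g hg => by
  have h1 : ι g = 1 := hρ (hg.trans (map_one ρ).symm)
  refine hk ?_
  rw [MonoidHom.mem_ker, ← L.proj g, ← map_one π]
  exact congrArg π (Subtype.ext h1)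

end Cfsg.Agent.TwoF.XL
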