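import Cfsg.Agent.TwoF.Iface

/-!
# TwoF / XL: linear and unitary groups in cross characteristic, the small rows (helper85).  Plan: `notes/TwoF/xl.md`
-/

set_option autoImplicit false

namespace Cfsg.Agent.TwoF.XL

/-- `L₃(3)`, `L₃(5)`, `L₄(3)`, `p = 2` -/
def LP2 : Prop :=
  ∀ (F : Type) [Field F] [Fintype F] (n : ℕ),
    (n = 3 ∧ (Fintype.card F = 3 ∨ Fintype.card F = 5)) ∨ (n = 4 ∧ Fintype.card F = 3) →
      Row 2 (Matrix.ProjectiveSpecialLinearGroup (Fin n) F)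

/-- `U₃(3)`, `U₃(5)`, `U₃(7)`, `U₅(3)`, `p = 2` -/
def UP2 : Prop :=
  ∀ (F : Type) [Field F] [Fintype F] (n q : ℕ), Fintype.card F = q ^ 2 →
    (n = 3 ∧ (q = 3 ∨ q = 5 ∨ q = 7)) ∨ (n = 5 ∧ q = 3) → Row 2 (PSU n F q)

/-- `L₂(q)`, `q` odd, `p = 2` -/
def LTwo : Prop :=
  ∀ (F : Type) [Field F] [Fintype F], Odd (Fintype.card F) → 11 ≤ Fintype.card F → Fintype.card F ≤ 81 →
    Row 2 (Matrix.ProjectiveSpecialLinearGroup (Fin 2) F)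

/-- `L₂(8)`, `L₃(4)`, `L₆(2)`, `p = 3` -/
def LP3 : Prop :=
  ∀ (F : Type) [Field F] [Fintype F] (n : ℕ),
    (n = 2 ∧ Fintype.card F = 8) ∨ (n = 3 ∧ Fintype.card F = 4) ∨ (n = 6 ∧ Fintype.card F = 2) →
      Row 3 (Matrix.ProjectiveSpecialLinearGroup (Fin n) F)

/-- `U₃(4)`, `p = 5`, and `U₃(5)`, `p = 3` -/
def UP3 : Prop :=
  ∀ (p : ℕ) [Fact p.Prime] (F : Type) [Field F] [Fintype F] (q : ℕ), Fintype.card F = q ^ 2 →
    (q = 4 ∧ p = 5) ∨ (q = 5 ∧ p = 3) → Row p (PSU 3 F q)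

/-- `U₄(3)`, `p = 2` -/
def UFour : Prop := ∀ (F : Type) [Field F] [Fintype F], Fintype.card F = 3 ^ 2 → Row 2 (PSU 4 F 3)

/-- `Uₙ(2)`, `p = 3` -/
def UTwo : Prop :=
  ∀ (F : Type) [Field F] [Fintype F] (n : ℕ), Fintype.card F = 2 ^ 2 → 5 ≤ n → n ≤ 8 → Row 3 (PSU n F 2)

/-- the small rows -/
structure Small : Prop where
  lp2 : LP2
  up2 : UP2
  ltwo : LTwo
  lp3 : LP3
  up3 : UP3
  ufour : UFour
  utwo : UTwo

/-- the two boxes -/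
structure Two : Prop where
  psl : Box fun K _ => IsPSL K
  psu : Box fun K _ => IsPSU K

/-- the reduction -/
def Red : Prop := Small → Two

end Cfsg.Agent.TwoF.XL
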