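import Cfsg.Agent.TwoF.XL.Base
import Cfsg.Agent.H912.BdSL
import Cfsg.Agent.H175.BdSU
import Cfsg.Agent.H203.BdSL2
import Cfsg.Agent.H411.IFU.Card
import Cfsg.Agent.H259.NatMod
import Cfsg.Agent.ClassicalGeometry.AutPSL.Auto
import Cfsg.Agent.ClassicalGeometry.PSUAutCount
import Cfsg.Agent.ClassicalGeometry.PSUAutMain
import Cfsg.Agent.LieClassical.HermPerfect
import Cfsg.Agent.S0242
import Cfsg.Agent.S0243
import Cfsg.Agent.S0248
import Cfsg.Agent.S0280
import Cfsg.Agent.S0283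
import Cfsg.Agent.S2086
import Cfsg.Agent.S2089
import Cfsg.Agent.S2601
import Cfsg.Agent.S2602
import Cfsg.Agent.S2603

/-!
# TwoF / XL: orders, outer automorphisms, minimal dimensions and lifts for `PSL_n(q)` and `PSU_n(q)` (helper1)
-/

set_option autoImplicit false

namespace Cfsg.Agent.TwoF.XL

open Module Gen XE
open Cfsg.Agent.ClassicalGeometry

/-- `PSL_n(F)` -/
abbrev PL (n : ℕ) (F : Type) [Field F] : Type := Matrix.ProjectiveSpecialLinearGroup (Fin n) F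

/-- `SL_n(F)` -/
abbrev SLn (n : ℕ) (F : Type) [Field F] : Type := Matrix.SpecialLinearGroup (Fin n) F

section Num

variable {p : ℕ} [Fact p.Prime] {S : Type} [Group S]

theorem card_of_surj {G H : Type*} [Group G] [Group H] (f : G →* H) (hf : Function.Surjective f) :
    Nat.card G = Nat.card f.ker * Nat.card H := by
  rw [← Subgroup.card_mul_index f.ker, Subgroup.index_ker, f.range_eq_top_of_surjective hf, Subgroup.card_top]

theorem center_bot (S : Type) [Group S] [IsSimpleGroup S] (h : commutator S = ⊤) : Subgroup.center S = ⊥ := by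
  refine (Subgroup.normal_of_characteristic (Subgroup.center S)).eq_bot_or_eq_top.resolve_right fun e => ?_
  have h1 : commutator S = ⊥ := by
    rw [commutator_def, Subgroup.commutator_eq_bot_iff_le_centralizer]
    intro a _ b _
    exact Subgroup.mem_center_iff.1 (e ▸ Subgroup.mem_top a) b
  exact top_ne_bot (h.symm.trans h1)

theorem comm_top_of_surj {G H : Type*} [Group G] [Group H] (f : G →* H) (hf : Function.Surjective f)
    (hG : commutator G = ⊤) : commutator H = ⊤ := by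
  rw [commutator_def, ← Subgroup.map_top_of_surjective f hf, ← Subgroup.map_commutator, ← commutator_def, hG]

omit [Fact p.Prime] in
theorem mem_of_dvd (hp : p.Prime) {N : ℕ} (k : ℕ) (l : List ℕ) (hl : ∀ x ∈ l, x.Prime) (hN : N ∣ l.prod ^ k)
    (h : p ∣ N) : p ∈ l :=
  mem_list_primes_of_dvd_prod hp.prime (fun x hx => (hl x hx).prime) (hp.dvd_of_dvd_pow (h.trans hN))

theorem pow_fact_le {o e : ℕ} (h : ¬ p ^ (e + 1) ∣ o) : p ^ o.factorization p ≤ p ^ e :=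
  Nat.pow_le_pow_right (Fact.out : p.Prime).pos (by
    by_contra h1
    exact h ((pow_dvd_pow p (by omega)).trans (Nat.ordProj_dvd o p)))

/-- rows that are free by orders -/
theorem row_free [Finite S] (hZ : Subgroup.center S = ⊥) {s o : ℕ} (hs : Nat.card S = s) (ho : Nat.card (Out S) = o)
    (h1 : ¬ p ^ (small p + 1) ∣ s * o) (h2 : ¬ p ∣ o) : Row p S :=
  ⟨row88_of_not_dvd (by rwa [card_aut hZ, hs, ho]), row89_of_not_dvd (by rwa [ho])⟩

theorem row_free' [Finite S] (hZ : Subgroup.center S = ⊥) {s o : ℕ} (hs : Nat.card S = s) (ho : Nat.card (Out S) = o)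
    (h1 : ¬ p ^ 2 ∣ s * o) (h2 : ¬ p ∣ o) : Row p S :=
  row_free hZ hs ho (fun h => h1 ((pow_dvd_pow p (Nat.succ_le_succ (one_le_small p))).trans h)) h2

theorem row_not_dvd [Finite S] (hZ : Subgroup.center S = ⊥) {s o : ℕ} (hs : Nat.card S = s)
    (ho : Nat.card (Out S) = o) (h : ¬ p ∣ s * o) : Row p S :=
  (noOff_of_not_dvd (by rwa [card_aut hZ, hs, ho])).row

/-- the rank is bounded by the order -/
theorem rank_of_not_dvd [Finite S] {m : ℕ} (h : ¬ p ^ (m + 1) ∣ Nat.card (MulAut S)) (E : Subgroup (MulAut S))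
    (hE : IsElementaryAbelian p E) : Nat.card E ≤ p ^ m := by
  have : Finite (MulAut S) := Finite.of_injective _ (DFunLike.coe_injective (F := MulAut S))
  obtain ⟨r, hr⟩ := (elemAb_isPGroup hE).exists_card_eq
  rw [hr]
  refine Nat.pow_le_pow_right (Fact.out : p.Prime).pos ?_
  by_contra h1
  exact h ((pow_dvd_pow p (by omega)).trans (hr ▸ E.card_subgroup_dvd_card))

theorem exists_char_ne {F : Type} [Field F] [Fintype F] (h : ¬ p ∣ Fintype.card F) :
    ∃ r f : ℕ, r.Prime ∧ CharP F r ∧ 1 ≤ f ∧ Fintype.card F = r ^ f ∧ r ≠ p := by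
  obtain ⟨r, f, h1, h2, h3, h4⟩ := exists_char F
  refine ⟨r, f, h1, h2, h3, h4, ?_⟩
  rintro rfl
  exact h (h4 ▸ dvd_pow_self r (by omega))

end Num

section Lin

variable {p : ℕ} [Fact p.Prime] {F : Type} [Field F] [Fintype F] {n q : ℕ}

theorem perfL (hn : 2 ≤ n) (h2 : n = 2 → 4 ≤ Fintype.card F) : commutator (SLn n F) = ⊤ := by
  rcases hn.eq_or_lt with rfl | h
  · exact H259.NatMod.commutator_eq_top (h2 rfl)
  · exact S0248.result n h

theorem simpleL (hn : 2 ≤ n) (h2 : n = 2 → 4 ≤ Fintype.card F) : IsSimpleGroup (PL n F) := by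
  have : Nontrivial (Fin n) := Fin.nontrivial_iff_two_le.2 hn
  exact LieClassical.SLGen.psl_isSimpleGroup_of_perfect (perfL hn h2)

theorem finL (n : ℕ) (F : Type) [Field F] [Fintype F] : Finite (PL n F) :=
  Finite.of_surjective _ AutPSL.Root.pr_surjective

theorem centerL (hn : 2 ≤ n) (h2 : n = 2 → 4 ≤ Fintype.card F) : Subgroup.center (PL n F) = ⊥ :=
  have := simpleL hn h2
  center_bot _ (comm_top_of_surj _ AutPSL.Root.pr_surjective (perfL hn h2))

theorem outL {r f : ℕ} (hr : r.Prime) (hf : 1 ≤ f) (hF : Fintype.card F = r ^ f) (hn : 3 ≤ n) :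
    Nat.card (Out (PL n F)) = Nat.gcd n (r ^ f - 1) * (2 * f) := by
  have := Fact.mk hr
  obtain ⟨φ, h1, -, h3⟩ := S2601.result hf hF hn
  rw [card_of_surj φ h1, h3, Nat.card_congr Multiplicative.toAdd, Nat.card_prod, Nat.card_zmod, Nat.card_zmod,
    mul_comm f]

theorem outL2 {r f : ℕ} (hr : r.Prime) (hf : 1 ≤ f) (hF : Fintype.card F = r ^ f) (h4 : 4 ≤ r ^ f) :
    Nat.card (Out (PL 2 F)) = Nat.gcd 2 (r ^ f - 1) * f := by
  have := Fact.mk hr
  obtain ⟨φ, h1, -, h3⟩ := S2602.result hf hF h4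
  rw [card_of_surj φ h1, h3, Nat.card_congr Multiplicative.toAdd, Nat.card_zmod]

theorem cardL (hF : Fintype.card F = q) (hn : 2 ≤ n) {s : ℕ}
    (h : Nat.gcd n (q - 1) * ((q - 1) * s) = ∏ i : Fin n, (q ^ n - q ^ (i : ℕ))) : Nat.card (PL n F) = s := by
  have hq : 1 < q := hF ▸ Fintype.one_lt_card
  rw [← S0243.result hF n hn] at h
  exact (Nat.eq_of_mul_eq_mul_left (by omega)
    (Nat.eq_of_mul_eq_mul_left (Nat.gcd_pos_of_pos_left _ (by omega)) h)).symm

theorem cardL_le (hF : Fintype.card F = q) (hn : 2 ≤ n) :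
    Nat.gcd n (q - 1) * Nat.card (PL n F) ≤ q ^ (n ^ 2 - 1) := by
  have hq : 1 < q := hF ▸ Fintype.one_lt_card
  have h := S0243.result hF n hn
  obtain ⟨m, rfl⟩ : ∃ m, n = m + 1 := ⟨n - 1, by omega⟩
  rw [Fin.prod_univ_castSucc] at h
  have h1 : ∏ i : Fin m, (q ^ (m + 1) - q ^ ((Fin.castSucc i : Fin (m + 1)) : ℕ)) ≤ (q ^ (m + 1)) ^ m := by
    refine (Finset.prod_le_pow_card _ _ _ fun i _ => Nat.sub_le _ _).trans ?_
    rw [Finset.card_univ, Fintype.card_fin]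
  have h2 : q ^ (m + 1) - q ^ ((Fin.last m : Fin (m + 1)) : ℕ) = (q - 1) * q ^ m := by
    rw [Fin.val_last, pow_succ, Nat.sub_mul, one_mul, mul_comm]
  rw [h2, mul_left_comm] at h
  refine Nat.le_of_mul_le_mul_left (c := q - 1) ?_ (Nat.sub_pos_of_lt hq)
  rw [h, show (m + 1) ^ 2 - 1 = (m + 1) * m + m from Nat.sub_eq_of_eq_add (by ring), pow_add q ((m + 1) * m), pow_mul,
    mul_left_comm (q - 1)]
  exact Nat.mul_le_mul_right _ h1

theorem gcd_coprime {n r f : ℕ} (hf : 1 ≤ f) (hr : r.Prime) : (Nat.gcd n (r ^ f - 1)).Coprime r := by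
  refine Nat.Coprime.coprime_dvd_left (Nat.gcd_dvd_right _ _) ((Nat.coprime_comm.1 ((Nat.Prime.coprime_iff_not_dvd hr).2
    fun h => ?_)))
  have h1 : r ∣ r ^ f := dvd_pow_self r (by omega)
  have h2 := (Nat.dvd_sub h1 h)
  rw [Nat.sub_sub_self (Nat.one_le_pow _ _ hr.pos)] at h2
  exact hr.one_lt.ne' (Nat.dvd_one.1 h2)

theorem gcd_coprime' {n r f : ℕ} (hf : 1 ≤ f) (hr : r.Prime) : (Nat.gcd n (r ^ f + 1)).Coprime r := by
  refine Nat.Coprime.coprime_dvd_left (Nat.gcd_dvd_right _ _) ((Nat.coprime_comm.1 ((Nat.Prime.coprime_iff_not_dvd hr).2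
    fun h => ?_)))
  exact hr.one_lt.ne' (Nat.dvd_one.1 ((Nat.dvd_add_right (dvd_pow_self r (by omega))).1 h))

/-- the exceptional multipliers -/
def ExL (n q : ℕ) : Prop := (n, q) ∈ ({(2, 4), (2, 9), (3, 2), (3, 4), (4, 2)} : Set (ℕ × ℕ))

theorem lbL (hF : Fintype.card F = q) (hp : ¬ p ∣ q) (hn : 3 ≤ n) (he : ¬ ExL n q) :
    LB p (PL n F) (q ^ (n - 1) - 1) := by
  subst hF
  obtain ⟨r, f, h1, h2, h3, h4, h5⟩ := exists_char_ne hp
  refine lb_of_bd' (H912.Bd.bd_psl h1 (cast_ne_zero h1 h5) hn h2) (S2086.result rfl n (by omega) (by omega) he) ?_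
  rw [h4]
  exact gcd_coprime h3 h1

theorem lbL2 (hF : Fintype.card F = q) (hp : ¬ p ∣ q) (h4 : 4 ≤ q) (he : ¬ ExL 2 q) :
    LB p (PL 2 F) ((q - 1) / Nat.gcd 2 (q - 1)) := by
  subst hF
  obtain ⟨r, f, h1, h2, h3, h4, h5⟩ := exists_char_ne hp
  refine lb_of_bd' (H203.BdSL2.bd_of_sl2 h1 rfl (cast_ne_zero h1 h5) AutPSL.Root.pr (QuotientGroup.ker_mk' _).le)
    (S2086.result rfl 2 le_rfl (by omega) he) ?_
  rw [h4]
  exact gcd_coprime h3 h1

theorem bigL (hF : Fintype.card F = q) (hp : ¬ p ∣ q) (hn : 3 ≤ n) (he : ¬ ExL n q) {N o : ℕ}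
    (hN : Nat.gcd n (q - 1) * Nat.card (PL n F) ≤ N) (ho : p ^ (Nat.card (Out (PL n F))).factorization p ≤ o)
    (h : (N * o) ^ 2 < p ^ (q ^ (n - 1) - 1)) : NoOff p (PL n F) :=
  have := finL n F
  noOff_of_LB (lbL hF hp hn he) (fun K _ _ π hπ _ => Nat.le_of_dvd (Nat.gcd_pos_of_pos_left _ (by omega))
    (card_ker_dvd' (S2086.result hF n (by omega) (by omega) he) K π hπ)) le_rfl ho
    (lt_of_le_of_lt (Nat.pow_le_pow_left (Nat.mul_le_mul_right _ hN) 2) h)

variable {Y : Type} [Group Y] [Finite Y] {V : Type} [AddCommGroup V] [Module (ZMod p) V]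
  {K : Subgroup Y} {ρ : Representation (ZMod p) Y V} {π : K →* PL n F} {φ : Y →* MulAut (PL n F)}

/-- **the lift of `SL_n(F)`** -/
theorem exists_lfL (H : Sit p K ρ π φ) (hn : 2 ≤ n) (h2 : n = 2 → 4 ≤ Fintype.card F)
    (he : ¬ ExL n (Fintype.card F)) : ∃ ι : SLn n F →* Y, Lf K π AutPSL.Root.pr ι :=
  have : NeZero (Nat.gcd n (Fintype.card F - 1)) := ⟨(Nat.gcd_pos_of_pos_left _ (by omega)).ne'⟩
  exists_lf H (perfL hn h2) AutPSL.Root.pr_surjective (QuotientGroup.ker_mk' _).le (S2086.result rfl n hn h2 he) (by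
    rw [QuotientGroup.ker_mk', S0280.card_center_SL (by omega), Nat.card_congr Multiplicative.toAdd, Nat.card_zmod])

omit [Finite Y] [Fintype F] in
theorem Lf.cenL (H : Sit p K ρ π φ) {ι : SLn n F →* Y} (L : Lf K π AutPSL.Root.pr ι) : Cen ρ ι :=
  L.cen H.faithful (QuotientGroup.ker_mk' _).le

omit [Finite Y] in
/-- the action of `y` on the lift -/
theorem Lf.conjL (H : Sit p K ρ π φ) {ι : SLn n F →* Y} (L : Lf K π AutPSL.Root.pr ι) (hn : 2 ≤ n)
    (h2 : n = 2 → 4 ≤ Fintype.card F) {y : Y} {α : MulAut (SLn n F)} (h : φ y = AutPSL.Auto.lift α) (g : SLn n F) :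
    y * ι g * y⁻¹ = ι (α g) :=
  have := H.normal
  L.conj H.toFrm (perfL hn h2) (α := α.toMonoidHom) (fun g => by rw [h, AutPSL.Auto.lift_pr]; rfl) g

end Lin

section Uni

variable {p : ℕ} [Fact p.Prime] {F : Type} [Field F] [Fintype F] {n q : ℕ}

theorem finU (n : ℕ) (F : Type) [Field F] [Fintype F] (q : ℕ) : Finite (PSU n F q) :=
  Finite.of_surjective _ PSUAutBasic.pr_surjective

theorem outU {r f : ℕ} (hr : r.Prime) (hf : 1 ≤ f) (hq : q = r ^ f) (hF : Fintype.card F = q ^ 2) (hn : 3 ≤ n)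
    (h32 : ¬ (n = 3 ∧ q = 2)) : Nat.card (Out (PSU n F q)) = Nat.gcd n (q + 1) * (2 * f) := by
  have := Fact.mk hr
  obtain ⟨φ, h1, -, h3⟩ := S2603.result hf hq hF hn h32
  rw [card_of_surj φ h1, h3, Nat.card_congr Multiplicative.toAdd, Nat.card_zmod]

theorem cardU (hF : Fintype.card F = q ^ 2) (hn : 2 ≤ n) {s : ℕ}
    (h : Nat.gcd n (q + 1) * ((q + 1) * s) = q ^ (n * (n - 1) / 2) *
      ∏ i ∈ Finset.range n, (if Even i then q ^ (i + 1) + 1 else q ^ (i + 1) - 1)) : Nat.card (PSU n F q) = s := by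
  rw [← S0280.result hF n hn] at h
  exact (Nat.eq_of_mul_eq_mul_left (by omega)
    (Nat.eq_of_mul_eq_mul_left (Nat.gcd_pos_of_pos_left _ (by omega)) h)).symm

theorem cardU_le (hF : Fintype.card F = q ^ 2) (hn : 2 ≤ n) :
    Nat.gcd n (q + 1) * Nat.card (PSU n F q) ≤ q ^ (n ^ 2 - 1) := by
  refine le_trans (le_of_eq ?_) (H411.IFU.card_SU_le hF (n := n) (by omega))
  rw [← S0280.card_center hF n hn, ← Subgroup.card_mul_index (Subgroup.center (SU n F q))]
  rfl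

/-- the exceptional multipliers -/
def ExU (n q : ℕ) : Prop := (n, q) ∈ ({(4, 2), (4, 3), (6, 2)} : Set (ℕ × ℕ))

theorem exists_charU (hF : Fintype.card F = q ^ 2) (hp : ¬ p ∣ q) :
    ∃ r f : ℕ, r.Prime ∧ CharP F r ∧ 1 ≤ f ∧ q = r ^ f ∧ r ≠ p := by
  obtain ⟨r, f, h1, h2, h3, h4⟩ := LieClassical.HermBasic.exists_prime_pow hF
  refine ⟨r, f, h1, h2, h4, h3, ?_⟩
  rintro rfl
  exact hp (h3 ▸ dvd_pow_self r (by omega))

theorem lbU (hF : Fintype.card F = q ^ 2) (hp : ¬ p ∣ q) (hn : 3 ≤ n) (h32 : ¬ (n = 3 ∧ q = 2)) (he : ¬ ExU n q) :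
    LB p (PSU n F q) ((q - 1) * q ^ (n - 2)) := by
  obtain ⟨r, f, h1, h2, h3, h4, h5⟩ := exists_charU hF hp
  refine lb_of_bd' (H175.BdSU.bd_psu h1 hF hn (cast_ne_zero h1 h5) (MulEquiv.refl _))
    (S2089.result n q hF hn h32 he) ?_
  rw [h4]
  exact gcd_coprime' h3 h1

theorem bigU (hF : Fintype.card F = q ^ 2) (hp : ¬ p ∣ q) (hn : 3 ≤ n) (h32 : ¬ (n = 3 ∧ q = 2)) (he : ¬ ExU n q)
    {N o : ℕ} (hN : Nat.gcd n (q + 1) * Nat.card (PSU n F q) ≤ N)
    (ho : p ^ (Nat.card (Out (PSU n F q))).factorization p ≤ o) (h : (N * o) ^ 2 < p ^ ((q - 1) * q ^ (n - 2))) :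
    NoOff p (PSU n F q) :=
  have := finU n F q
  noOff_of_LB (lbU hF hp hn h32 he) (fun K _ _ π hπ _ => Nat.le_of_dvd (Nat.gcd_pos_of_pos_left _ (by omega))
    (card_ker_dvd' (S2089.result n q hF hn h32 he) K π hπ)) le_rfl ho
    (lt_of_le_of_lt (Nat.pow_le_pow_left (Nat.mul_le_mul_right _ hN) 2) h)

theorem perfU (hF : Fintype.card F = q ^ 2) (hn : 3 ≤ n) (h32 : ¬ (n = 3 ∧ q = 2)) : commutator (SU n F q) = ⊤ :=
  LieClassical.HermPerfect.commutator_SU_eq_top hF hn h32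

theorem simpleU (hF : Fintype.card F = q ^ 2) (hn : 3 ≤ n) (h32 : ¬ (n = 3 ∧ q = 2)) : IsSimpleGroup (PSU n F q) :=
  LieClassical.HermSimple.isSimpleGroup_of_perfect hF hn (perfU hF hn h32)

theorem centerU (hF : Fintype.card F = q ^ 2) (hn : 3 ≤ n) (h32 : ¬ (n = 3 ∧ q = 2)) :
    Subgroup.center (PSU n F q) = ⊥ :=
  have := simpleU hF hn h32
  center_bot _ (comm_top_of_surj _ PSUAutBasic.pr_surjective (perfU hF hn h32))

variable {Y : Type} [Group Y] [Finite Y] {V : Type} [AddCommGroup V] [Module (ZMod p) V]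
  {K : Subgroup Y} {ρ : Representation (ZMod p) Y V} {π : K →* PSU n F q} {φ : Y →* MulAut (PSU n F q)}

/-- **the lift of `SU_n(q)`** -/
theorem exists_lfU (H : Sit p K ρ π φ) (hF : Fintype.card F = q ^ 2) (hn : 3 ≤ n) (h32 : ¬ (n = 3 ∧ q = 2))
    (he : ¬ ExU n q) : ∃ ι : SU n F q →* Y, Lf K π (PSUAutBasic.pr n F q) ι :=
  have : NeZero (Nat.gcd n (q + 1)) := ⟨(Nat.gcd_pos_of_pos_left _ (by omega)).ne'⟩
  exists_lf H (perfU hF hn h32) PSUAutBasic.pr_surjective (QuotientGroup.ker_mk' _).le (S2089.result n q hF hn h32 he)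
    (by rw [PSUAutBasic.pr, QuotientGroup.ker_mk', S0280.card_center hF n (by omega),
      Nat.card_congr Multiplicative.toAdd, Nat.card_zmod])

omit [Finite Y] [Fintype F] in
theorem Lf.cenU (H : Sit p K ρ π φ) {ι : SU n F q →* Y} (L : Lf K π (PSUAutBasic.pr n F q) ι) : Cen ρ ι :=
  L.cen H.faithful (QuotientGroup.ker_mk' _).le

omit [Finite Y] in
/-- the action of `y` on the lift (every `φ y` has this form by `PSUAutMain.exists_toAut`) -/
theorem Lf.conjU (H : Sit p K ρ π φ) {ι : SU n F q →* Y} (L : Lf K π (PSUAutBasic.pr n F q) ι)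
    (hF : Fintype.card F = q ^ 2) (hn : 3 ≤ n) (h32 : ¬ (n = 3 ∧ q = 2)) {y : Y} {A : GU n F q} {σ : F ≃+* F}
    (h : φ y = PSUAutCount.toAut A σ) (g : SU n F q) : y * ι g * y⁻¹ = ι (PSUAutCount.semiConj A σ g) :=
  have := H.normal
  L.conj H.toFrm (perfU hF hn h32) (α := (PSUAutCount.semiConj A σ).toMonoidHom)
    (fun g => by rw [h]; rfl) g

end Uni

end Cfsg.Agent.TwoF.XL
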