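import Cfsg.Agent.TwoF.XL.L62
import Cfsg.Agent.TwoF.XL.L2.Mat
import Cfsg.Agent.LieClassical.SLTwoUnipotent
import Cfsg.Agent.H376.SpEmb

/-!
# TwoF / XL: the row `L₂(8)`, `p = 3` (helper1)
-/

set_option autoImplicit false

namespace Cfsg.Agent.TwoF.XL

open Module Gen XE Subgroup Matrix
open Cfsg.Agent.ClassicalGeometry.AutPSL.Root Cfsg.Agent.ClassicalGeometry.AutPSL.Auto
open Cfsg.Agent.H199.PslAut Cfsg.Agent.LieClassical.SLTwoUnipotent

namespace L28

/-- an element of order three that acts on `2 ^ 3` -/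
theorem core {Y : Type} [Group Y] [Finite Y] {V : Type} [AddCommGroup V] [Module (ZMod 3) V] [Finite V]
    {ρ : Representation (ZMod 3) Y V} {R : Subgroup Y} (hf : Function.Injective ρ)
    (hc : ∀ a ∈ R, ∀ b ∈ R, a * b = b * a) (he : ∀ x ∈ R, x ^ 2 = 1) (ht : Tr R) (h8 : Nat.card R = 2 ^ 3) {a : Y}
    (a3 : a ^ 3 = 1) (hn : ∀ x ∈ R, a * x * a⁻¹ ∈ R) {x : Y} (hx : x ∈ R) (h1 : a * x * a⁻¹ * x⁻¹ ≠ 1) :
    4 ≤ cod ρ (zpowers a) ∧ ∀ K z, Irr ρ K → (∀ H, R ≤ H → z ∈ H → K ≤ H) → fx ρ (zpowers a) ≤ fx ρ (zpowers z) →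
      5 ≤ cod ρ (zpowers a) := by
  have h2 : ((2 : ℕ) : ZMod 3) ≠ 0 := by decide
  have m : ∀ y ∈ R, a * y * a⁻¹ * y⁻¹ ∈ R := fun y hy => mul_mem (hn y hy) (inv_mem hy)
  have h7 := trans_lb (ρ := ρ) Nat.prime_two h2 hc he ht ⟨_, m x hx, fun e => h1 (hf (e.trans (map_one ρ).symm))⟩
  let B := closure {y | ∃ x ∈ R, y = a * x * a⁻¹ * x⁻¹}
  have BR : B ≤ R := (closure_le R).2 (by rintro _ ⟨y, hy, rfl⟩; exact m y hy)
  have mB : ∀ y ∈ R, a * y * a⁻¹ * y⁻¹ ∈ B := fun y hy => subset_closure ⟨y, hy, rfl⟩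
  have aB : ∀ y ∈ B, a * y * a⁻¹ ∈ B := fun y hy => by simpa using mul_mem (mB y (BR hy)) hy
  have hB := cod_comm_le (ρ := ρ) (B := B) hc (by rw [h8]; decide) (s := 3) (n := 1) a3 hn fun H h =>
    (closure_le H).2 (by rintro _ ⟨y, hy, rfl⟩; exact h y hy)
  have h3 : 2 < Nat.card B := by
    have := Fintype.ofFinite B
    rw [Nat.card_eq_fintype_card, Fintype.two_lt_card_iff]
    refine ⟨1, ⟨_, mB x hx⟩, ⟨_, aB _ (mB x hx)⟩, fun e => h1 (congrArg Subtype.val e).symm, fun e => h1 ?_,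
      fun e => h1 ?_⟩
    · exact conj_eq_one_iff.1 (congrArg Subtype.val e).symm
    · replace e : a * x * a⁻¹ * x⁻¹ = a * (a * x * a⁻¹ * x⁻¹) * a⁻¹ := congrArg Subtype.val e
      have e1 := he _ (m x hx)
      generalize hb : a * x * a⁻¹ * x⁻¹ = b at e e1 ⊢
      rw [mul_inv_eq_iff_eq_mul] at hb
      have e2 : a ^ 3 * x * (a ^ 3)⁻¹ = a * (a * (a * x * a⁻¹) * a⁻¹) * a⁻¹ := by rw [pow_three]; group
      have e3 : a * (a * x * a⁻¹) * a⁻¹ = x := by rw [hb, ← conj_mul, ← e, hb, ← mul_assoc, ← pow_two, e1, one_mul]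
      rw [a3, e3, hb] at e2
      simpa using e2
  have h5 : 5 ≤ cod ρ B := by
    have := avg_ge (ρ := ρ) (R := B) Nat.prime_two h2 (fun a ha b hb => hc a (BR ha) b (BR hb)) (fun a ha => he a (BR ha))
      (c := 4) fun y hy y1 => by
        have := cod_elt_of_tr (ρ := ρ) Nat.prime_two h2 hc he ht (BR hy) y1 (m := 1) (by omega)
        omega
    by_contra e
    have := Nat.mul_le_mul_left (Nat.card B) (Nat.le_of_lt_succ (not_le.1 e))
    rw [show 2 - 1 = 1 from rfl, one_mul] at *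
    omega
  refine ⟨by omega, fun K z hK hg hz => ?_⟩
  have hR : Inv ρ R (fx ρ B ⊓ fx ρ (zpowers a)) := fun q hq v hv => by
    have h4 : ρ q v ∈ fx ρ B := fun b hb => by rw [← rho_mul, hc b (BR hb) q hq, rho_mul, hv.1 b hb]
    refine ⟨h4, mem_fx_zpowers.2 ?_⟩
    have h6 := h4 _ (mB q hq)
    rwa [rho_mul, rho_inv_apply, rho_mul, ← mem_fx_zpowers.1 hv.2, rho_inv_apply, rho_mul, mem_fx_zpowers.1 hv.2] at h6
  rcases hK _ (le_nrm_iff.1 (hg _ (le_nrm_iff.2 hR)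
    (le_nrm_iff.2 (inv_of_le_fx (inf_le_right.trans hz)) (mem_zpowers z)))) with e | e
  · have e1 : fx ρ B = ⊥ := by
      by_contra e1
      exact inf_fx_ne_bot (elemAb_isPGroup (elemAb_zpowers a3)) (inv_fx (zpowers_le.2 (mem_normalizer_fintype aB))) e1 e
    have := cod_of_fx_eq_bot e1
    have := cod_le_finrank (ρ := ρ) R
    omega
  · rw [eq_bot_of_fx_eq_top hf (inf_eq_top_iff.1 e).1, card_bot] at h3
    omega

variable {F : Type} [Field F]

/-- semilinear maps of order three fix a point -/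
theorem exists_fix {V : Type*} [AddCommGroup V] [Module F V] (T : V →+ V) {σ : F ≃+* F} {l : F} (hσ : σ l ≠ l)
    (hT : ∀ c v, T (c • v) = σ c • T v) (h3 : ∀ v, T (T (T v)) = v) {e : V} (he : e ≠ 0) :
    ∃ v ≠ 0, ∃ μ : F, T v = μ • v := by
  by_contra h
  push Not at h
  have key : ∀ v, v + T v + T (T v) = 0 := fun v => by
    by_contra e
    exact h _ e 1 (by rw [map_add, map_add, h3, one_smul]; abel)
  have h1 := key (l • e)
  rw [hT, hT] at h1
  have h2 : σ l - σ (σ l) ≠ 0 := sub_ne_zero.2 (σ.injective.ne hσ).symm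
  refine h e he ((σ l - σ (σ l))⁻¹ * (σ (σ l) - l)) ?_
  rw [mul_smul, eq_inv_smul_iff₀ h2]
  linear_combination (norm := module) h1 - σ (σ l) • key e

theorem conj_u {s : SLn 2 F} (h : s 1 0 = 0) (y : F) : s * u y * s⁻¹ = u (s 0 0 ^ 2 * y) := by
  have hd : s 0 0 * s 1 1 - s 0 1 * s 1 0 = 1 := (det_fin_two s.1).symm.trans s.2
  rw [mul_inv_eq_iff_eq_mul]
  refine ext_coe ?_
  show s.1 * !![1, y; 0, 1] = !![1, _; 0, 1] * s.1
  ext i j
  fin_cases i <;> fin_cases j <;> simp [mul_apply, Fin.sum_univ_two, h]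
  linear_combination (-s 0 0 * y) * hd - s 0 0 * y * s 0 1 * h

theorem exists_col {v : Fin 2 → F} (hv : v ≠ 0) : ∃ P : SLn 2 F, ∀ i, P i 0 = v i := by
  by_cases h : v 0 = 0
  · have h1 : v 1 ≠ 0 := fun e => hv (funext fun i => by fin_cases i <;> assumption)
    exact ⟨⟨!![v 0, -(v 1)⁻¹; v 1, 0], by simp [det_fin_two, h1]⟩, fun i => by fin_cases i <;> rfl⟩
  · exact ⟨⟨!![v 0, 0; v 1, (v 0)⁻¹], by simp [det_fin_two, h]⟩, fun i => by fin_cases i <;> rfl⟩

/-- the normal form of a semilinear automorphism of order three -/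
theorem exists_upper {s : SLn 2 F} {σ : F ≃+* F} {l : F} (hσ : σ l ≠ l) (h : s * fld σ (s * fld σ s) = 1)
    (h3 : σ * (σ * σ) = 1) : ∃ P : SLn 2 F, (P⁻¹ * s * fld σ P) 1 0 = 0 := by
  have mv : ∀ (g : SLn 2 F) (v : Fin 2 → F), σ ∘ (g.1 *ᵥ v) = (fld σ g).1 *ᵥ (σ ∘ v) := fun g v =>
    funext fun i => RingHom.map_mulVec (σ : F →+* F) g.1 v i
  obtain ⟨v, v0, μ, hv⟩ := exists_fix (σ := σ) (AddMonoidHom.mk' (fun v : Fin 2 → F => s.1 *ᵥ (σ ∘ v)) fun v w => by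
    rw [← mulVec_add]; exact congrArg _ (funext fun i => map_add σ _ _)) hσ (fun c v => by
      refine Eq.trans ?_ (mulVec_smul s.1 (σ c) (σ ∘ v))
      exact congrArg (s.1 *ᵥ ·) (funext fun i => map_mul σ _ _)) (fun v => by
      simp only [AddMonoidHom.mk'_apply]
      rw [mv s (σ ∘ v), ← sl_mul_mulVec, mv, ← sl_mul_mulVec, h, sl_one_mulVec]
      exact funext fun i => DFunLike.congr_fun h3 (v i)) (e := Pi.single 0 1) (by simp)
  obtain ⟨P, hP⟩ := exists_col v0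
  refine ⟨P, ?_⟩
  have h1 : ∀ g : SLn 2 F, g.1 *ᵥ Pi.single 0 1 = fun i => g i 0 := fun g => by
    rw [mulVec_single_one]; rfl
  have h2 : (P⁻¹ * s * fld σ P).1 *ᵥ Pi.single 0 1 = μ • Pi.single 0 1 := by
    rw [sl_mul_mulVec, sl_mul_mulVec, h1 (fld σ P), show (fun i => fld σ P i 0) = σ ∘ v from
      funext fun i => congrArg σ (hP i), show s.1 *ᵥ σ ∘ v = _ from hv, mulVec_smul, ← funext hP, ← h1, ← sl_mul_mulVec,
      inv_mul_cancel, sl_one_mulVec]
  simpa using congrFun ((h1 _).symm.trans h2) 1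

theorem cube_form (s : SLn 2 F) (σ : F ≃+* F) :
    Psi 2 F (s * fld σ (s * fld σ s) : SLn 2 F) * phi 2 F (σ * (σ * σ)) = (Psi 2 F s * phi 2 F σ) ^ 3 := by
  have pf : ∀ g : SLn 2 F, Psi 2 F (fld σ g : SLn 2 F) = phi 2 F σ * Psi 2 F g * (phi 2 F σ)⁻¹ := fun g => by
    rw [Psi_coe, Psi_coe, ← phi_pr, conj_apply]
  have m : ∀ g h : SLn 2 F, Psi 2 F (g * h : SLn 2 F) = Psi 2 F g * Psi 2 F h := fun g h => by
    rw [Psi_coe, Psi_coe, Psi_coe, map_mul, map_mul]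
  rw [m, pf, m, pf, map_mul, map_mul, pow_three]
  group

variable [Fintype F]

theorem cube (hF : Fintype.card F = 8) {x : F} (h : x ^ 3 = 1) : x = 1 := by
  have h1 := FiniteField.pow_card x
  rw [hF] at h1
  linear_combination x ^ 2 * h1 + (1 - x ^ 7 - x ^ 4 - x) * h

theorem not_upper (hF : Fintype.card F = 8) {t : SLn 2 F} (h3 : t ^ 3 = 1) (h : t 1 0 = 0) : t = 1 := by
  have : CharP F 2 := charP_of_card_eq_prime_pow (f := 3) hF
  have h1 : ∀ i, t i i = 1 := fun i => cube hF (by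
    have := congrArg (fun g : SLn 2 F => g i i) h3
    fin_cases i <;> simp [pow_succ, mul_apply, Fin.sum_univ_two, h] at this ⊢ <;> exact this)
  obtain ⟨x, rfl⟩ := mem_upperUnipSL_iff_exists.1 (mem_upperUnipSL_iff.2 ⟨h1 0, h, h1 1⟩)
  rwa [pow_three, ← u_add, CharTwo.add_self_eq_zero, u_zero, mul_one] at h3

end L28

open L28 in
theorem row_L28 {F : Type} [Field F] [Fintype F] (hF : Fintype.card F = 8) : Row 3 (PL 2 F) := by
  have := finL 2 F
  have : Finite (MulAut (PL 2 F)) := Finite.of_injective _ (DFunLike.coe_injective (F := MulAut (PL 2 F)))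
  have : CharP F 2 := charP_of_card_eq_prime_pow (f := 3) hF
  have hS : center (PL 2 F) = ⊥ := centerL le_rfl (by omega)
  have ho : Nat.card (Out (PL 2 F)) = 3 := outL2 (r := 2) (f := 3) Nat.prime_two (by omega) hF (by omega)
  have hs : Nat.card (PL 2 F) = 504 := cardL hF (by omega) (by decide)
  have hi : Function.Injective (MulAut.conj.comp (pr : SLn 2 F →* PL 2 F)) :=
    ((injective_iff_map_eq_one _).2 fun x hx => (conj_eq_one_iff hS).1 hx).comp (pr_inj (by omega) (by rw [hF]; rfl))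
  have hr : ∀ E : Subgroup (MulAut (PL 2 F)), IsElementaryAbelian 3 E → Nat.card E ≤ 3 ^ 2 := by
    obtain ⟨x, hx⟩ := H376.SpEmb.exists_SL_two F
    rw [Nat.card_eq_fintype_card, hF, ← orderOf_injective _ hi] at hx
    refine card_le_of_not_elemAb (by rw [card_aut hS, hs, ho]; decide) (Q := zpowers _)
      (IsPGroup.of_card (n := 2) ((Nat.card_zpowers _).trans hx)) fun e => ?_
    exact absurd (hx ▸ orderOf_dvd_of_pow_eq_one (e.2 _ (mem_zpowers _))) (by decide)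
  refine ⟨row88_of_rank hr, row89_of_sit fun Y _ _ V _ _ _ K ρ π φ H A hA hI _ _ hK => False.elim ?_⟩
  obtain ⟨ι, L⟩ := exists_lfL H le_rfl (by omega) (by rw [hF]; unfold ExL; decide)
  obtain ⟨a, ha, aK⟩ := SetLike.not_le_iff_exists.1 hK
  have a3 := hA.1.2 a ha
  have sq : ∀ x : F, IsSquare x := FiniteField.isSquare_of_char_two (ringChar.eq F 2)
  obtain ⟨C, σ, hC⟩ := (exists_form le_rfl (φ a)).resolve_right fun e => absurd e.1 (by omega)
  obtain ⟨s, hs⟩ := L2.mem_inn (sq C.1.det)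
  obtain ⟨s, rfl⟩ := pr_surjective s
  replace hC : φ a = Psi 2 F s * phi 2 F σ := by rw [hC, Psi_coe, hs]; rfl
  obtain ⟨l, hl⟩ : ∃ l, σ l ≠ l := by
    by_contra e
    push Not at e
    refine aK (H.toFrm.mem_inn_iff.1 ⟨pr s, ?_⟩)
    rw [hC, show σ = 1 from RingEquiv.ext e, map_one, mul_one, Psi_coe]
  have h3 := cube_form s σ
  rw [← hC, ← map_pow, a3, map_one, ← map_one (phi 2 F)] at h3
  have h4 := (Psi_phi_eq le_rfl h3).2
  rw [h4, mul_eq_right, Psi_coe] at h3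
  obtain ⟨P, hP⟩ := exists_upper hl (hi (h3.trans (map_one _).symm)) h4
  let j : SLn 2 F →* Y := ι.comp (MulAut.conj P).toMonoidHom
  have L' : Lf K π _ j := L.comp _
  have ji : Function.Injective j := fun x y e => (MulAut.conj P).injective (hi
    ((L.φ_ι H.toFrm _).symm.trans ((congrArg φ e).trans (L.φ_ι H.toFrm _))))
  have hj : ∀ x, a * j (u x) * a⁻¹ = j (u ((P⁻¹ * s * fld σ P) 0 0 ^ 2 * σ x)) := fun x => by
    rw [← conj_u hP, show u (σ x) = fld σ (u x) from ext_coe (by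
      ext i j
      fin_cases i <;> fin_cases j <;> simp [coe_u, coe_fld_apply])]
    refine (L.conjL H le_rfl (by omega) (α := MulAut.conj s * fld σ) (by
      rw [hC, map_mul, Psi_coe]
      exact congrArg (· * _) (MulEquiv.ext fun x => by obtain ⟨x, rfl⟩ := pr_surjective x; rfl)) _).trans (congrArg ι ?_)
    simp only [MulAut.mul_apply, MulAut.conj_apply, MulEquiv.coe_toMonoidHom, map_mul, map_inv]
    group
  have mR : ∀ {y}, y ∈ (upperUnipSL F).map j ↔ ∃ x, y = j (u x) :=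
    ⟨by rintro ⟨g, hg, rfl⟩; exact ⟨_, congrArg j (eq_u_of_mem_upperUnipSL hg)⟩,
      by rintro ⟨x, rfl⟩; exact ⟨_, u_mem_upperUnipSL x, rfl⟩⟩
  have ui : ∀ {x y : F}, j (u x) = j (u y) → x = y := fun e => congrArg (fun g : SLn 2 F => g 0 1) (ji e)
  obtain ⟨x, hx⟩ : ∃ x, a * j (u x) * a⁻¹ * (j (u x))⁻¹ ≠ 1 := by
    by_contra e
    push Not at e
    have e1 := fun x => ui ((hj x).symm.trans (mul_inv_eq_one.1 (e x)))
    have e2 := e1 1
    rw [map_one, mul_one] at e2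
    exact hl (by simpa only [e2, one_mul] using e1 l)
  obtain ⟨c4, c5⟩ := core (R := (upperUnipSL F).map j) H.faithful (fun y hy z hz => by
      obtain ⟨y, rfl⟩ := mR.1 hy
      obtain ⟨z, rfl⟩ := mR.1 hz
      rw [← map_mul, ← map_mul, ← u_add, ← u_add, add_comm])
    (fun y hy => by
      obtain ⟨y, rfl⟩ := mR.1 hy
      rw [← map_pow, pow_two, ← u_add, CharTwo.add_self_eq_zero, u_zero, map_one])
    (fun y hy y1 z hz z1 => by
      obtain ⟨y, rfl⟩ := mR.1 hy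
      obtain ⟨z, rfl⟩ := mR.1 hz
      have y0 : y ≠ 0 := by rintro rfl; exact y1 (by rw [u_zero, map_one])
      have z0 : z ≠ 0 := by rintro rfl; exact z1 (by rw [u_zero, map_one])
      obtain ⟨w, hw⟩ := sq (z / y)
      let d := L2.Dm (Units.mk0 w (left_ne_zero_of_mul (hw ▸ div_ne_zero z0 y0)))
      have hd : ∀ x, j d * j (u x) * (j d)⁻¹ = j (u (w ^ 2 * x)) := fun x => by
        rw [← map_inv, ← map_mul, ← map_mul, conj_u rfl]
        rfl
      refine ⟨(j d)⁻¹, inv_mem (mem_normalizer_fintype fun x hx => ?_), by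
        rw [inv_inv, hd, pow_two, ← hw, div_mul_cancel₀ _ y0]⟩
      obtain ⟨x, rfl⟩ := mR.1 hx
      exact mR.2 ⟨_, hd x⟩)
    (by rw [card_map_of_injective ji, card_upperUnipSL, Nat.card_eq_fintype_card, hF]; rfl) a3
    (fun y hy => by obtain ⟨y, rfl⟩ := mR.1 hy; exact mR.2 ⟨_, hj y⟩) (mR.2 ⟨x, rfl⟩) hx
  obtain ⟨r, r0, rm, hc, hd⟩ := off_data H hA hr
  have h5 := cod_le_of_mem (ρ := ρ) ha
  obtain rfl : r = 2 := by omega
  obtain ⟨b, hb, bK, b1⟩ : ∃ b ∈ A, b ∈ K ∧ b ≠ 1 := by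
    by_contra e
    push Not at e
    have h4 := H.toFrm.relIndex_dvd A
    rw [← inf_relIndex_right, (eq_bot_iff_forall (K ⊓ A)).2 fun x hx => e x hx.2 hx.1, relIndex_bot_left, hc, ho] at h4
    exact absurd h4 (by decide)
  obtain ⟨t, rfl⟩ := L'.surj b bK
  have := c5 K (j t) hI (fun J h1 h2 y hy => by
    obtain ⟨g, rfl⟩ := L'.surj y hy
    have h6 := map_le_iff_le_comap.1 h1
    exact (upperUnipSL_sup_conj_eq_top t (fun e => b1 (by
      rw [not_upper hF (ji (by rw [map_pow, hA.1.2 _ hb, map_one])) e, map_one])) (J.comap j) h6 fun x =>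
        mul_mem (mul_mem h2 (h6 (u_mem_upperUnipSL x))) (inv_mem h2)).ge (mem_top g))
    ((fx_eq_of_cod_le (zpowers_le.2 ha) (by omega)).ge.trans (fx_anti (zpowers_le.2 hb)))
  omega

end Cfsg.Agent.TwoF.XL
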