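import Cfsg.Agent.TwoF.XL.Defs
import Cfsg.Agent.TwoF.XL.Fac
import Cfsg.Agent.TwoF.XL.Rch
import Cfsg.Agent.TwoF.XS.Sq
import Cfsg.Agent.H740.Cyc.PSUAut
import Cfsg.Agent.H859.Heis

/-!
# TwoF / XL: the rows `U₃(4)`, `p = 5` and `U₃(5)`, `p = 3` (helper1)
-/

set_option autoImplicit false

namespace Cfsg.Agent.TwoF.XL

open Module Gen XE Subgroup Matrix
open Cfsg.Agent.ClassicalGeometry Cfsg.Agent.LieClassical.SUBasic

section Three

variable {p : ℕ} [Fact p.Prime] {S : Type} [Group S]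

theorem not_card_prime {E : Subgroup S} {s : S} (hc : Nat.card E = p) (hn : ∀ x ∈ E, s * x * s⁻¹ ∈ E)
    (hN : ∀ x ∈ E, x * (s * x * s⁻¹) * (s * (s * x * s⁻¹) * s⁻¹) = 1) (hp : ∀ k : ℤ, ¬ (p : ℤ) ∣ 1 + k + k * k) :
    False := by
  have hpp : p.Prime := Fact.out
  have : Finite E := Nat.finite_of_card_ne_zero (hc ▸ hpp.ne_zero)
  obtain ⟨⟨x, hx⟩, x1⟩ := ne_bot_iff_exists_ne_one.1 (show E ≠ ⊥ from fun e => hpp.one_lt.ne' (by rw [← hc, e, card_bot]))
  have ho : orderOf x = p :=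
    orderOf_eq_prime (congrArg Subtype.val (hc ▸ pow_card_eq_one' (x := (⟨x, hx⟩ : E)))) fun e => x1 (Subtype.ext e)
  have he : zpowers x = E := eq_of_le_of_card_ge (zpowers_le.2 hx) (by rw [Nat.card_zpowers, ho, hc])
  obtain ⟨k, hk⟩ := mem_zpowers_iff.1 (he.ge (hn x hx))
  have h := hN x hx
  rw [← hk, ← conj_zpow, ← hk, ← _root_.zpow_mul, ← _root_.zpow_one_add, ← _root_.zpow_add] at h
  exact hp k (ho ▸ orderOf_dvd_iff_zpow_eq_one.2 h)

/-- a Sylow subgroup of order `p ^ 2` with an element that permutes `a`, `b`, `c` cyclically, `a * b * c = 1` -/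
theorem row88_of_three [Finite S] (h3 : ¬ p ^ 3 ∣ Nat.card (MulAut S)) (hp : ∀ k : ℤ, ¬ (p : ℤ) ∣ 1 + k + k * k)
    {a b c s : S} (a1 : a ≠ 1) (ap : a ^ p = 1) (ab : a * b = b * a) (abc : a * b * c = 1) (sa : s * a = b * s)
    (sb : s * b = c * s) : Row88 p S := by
  have hpp : p.Prime := Fact.out
  replace sa : s * a * s⁻¹ = b := by rw [sa, mul_inv_cancel_right]
  replace sb : s * b * s⁻¹ = c := by rw [sb, mul_inv_cancel_right]
  have hc : c = (a * b)⁻¹ := eq_inv_of_mul_eq_one_right abc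
  have sc : s * c * s⁻¹ = a := by
    rw [hc, ← conj_inv, ← conj_mul, sa, sb, inv_eq_iff_mul_eq_one, hc]
    group
  have bp : b ^ p = 1 := by rw [← sa, conj_pow, ap, mul_one, mul_inv_cancel]
  have hab : Commute a b := ab
  let f : zpowers a × zpowers b →* S := MonoidHom.noncommCoprod (zpowers a).subtype (zpowers b).subtype (by
    rintro ⟨_, i, rfl⟩ ⟨_, j, rfl⟩
    exact hab.zpow_zpow i j)
  have hf : ∀ x, x ∈ f.range ↔ ∃ i j : ℤ, a ^ i * b ^ j = x := fun x =>
    ⟨by rintro ⟨⟨⟨_, i, rfl⟩, _, j, rfl⟩, rfl⟩; exact ⟨i, j, rfl⟩,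
      by rintro ⟨i, j, rfl⟩; exact ⟨(⟨_, i, rfl⟩, ⟨_, j, rfl⟩), rfl⟩⟩
  have ma : a ∈ f.range := (hf _).2 ⟨1, 0, by simp⟩
  have mb : b ∈ f.range := (hf _).2 ⟨0, 1, by simp⟩
  have mc : c ∈ f.range := hc ▸ inv_mem (mul_mem ma mb)
  have cm : ∀ x ∈ f.range, ∀ y ∈ f.range, Commute x y := fun x hx y hy => by
    obtain ⟨i, j, rfl⟩ := (hf _).1 hx
    obtain ⟨k, l, rfl⟩ := (hf _).1 hy
    exact (((Commute.refl a).zpow_zpow i k).mul_right (hab.zpow_zpow i l)).mul_left
      ((hab.symm.zpow_zpow j k).mul_right ((Commute.refl b).zpow_zpow j l))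
  have nm : ∀ y ∈ f.range, s * y * s⁻¹ ∈ f.range := fun y hy => by
    obtain ⟨i, j, rfl⟩ := (hf _).1 hy
    rw [← conj_mul, ← conj_zpow, ← conj_zpow, sa, sb]
    exact mul_mem (zpow_mem mb i) (zpow_mem mc j)
  have hN : ∀ x ∈ f.range, x * (s * x * s⁻¹) * (s * (s * x * s⁻¹) * s⁻¹) = 1 := fun x hx => by
    obtain ⟨i, j, rfl⟩ := (hf _).1 hx
    rw [← conj_mul, ← conj_zpow, ← conj_zpow, sa, sb, ← conj_mul, ← conj_zpow, ← conj_zpow, sb, sc,
      (cm _ (zpow_mem mb j) _ (zpow_mem mb i)).mul_mul_mul_comm,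
      (cm _ (mul_mem (zpow_mem mb j) (zpow_mem mc j)) _ (zpow_mem mc i)).mul_mul_mul_comm, ← hab.mul_zpow,
      ← (cm _ mb _ mc).mul_zpow, ← (cm _ (mul_mem ma mb) _ mc).mul_zpow, ← (cm _ (mul_mem mb mc) _ ma).mul_zpow, abc,
      (cm _ (mul_mem mb mc) _ ma).eq, ← mul_assoc, abc, _root_.one_zpow, _root_.one_zpow, one_mul]
  have hP : Nat.card f.range = p ^ 2 := by
    have h1 : Nat.card f.range ∣ p ^ 2 := by
      refine (card_dvd_of_surjective f.rangeRestrict f.rangeRestrict_surjective).trans ?_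
      rw [Nat.card_prod, Nat.card_zpowers, Nat.card_zpowers, pow_two]
      exact mul_dvd_mul (orderOf_dvd_of_pow_eq_one ap) (orderOf_dvd_of_pow_eq_one bp)
    obtain ⟨i, hi, h2⟩ := (Nat.dvd_prime_pow hpp).1 h1
    interval_cases i
    · exact absurd (mem_bot.1 ((card_eq_one.1 h2).le ma)) a1
    · exact (not_card_prime (h2.trans (pow_one p)) nm hN hp).elim
    · exact h2
  have ns : s ∈ normalizer (f.range : Set S) := mem_normalizer_fintype nm
  refine XS.row88_of_sq h3 hP le_rfl fun E hE hn => ?_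
  by_contra h
  rw [not_or] at h
  exact not_card_prime (XS.card_eq_of_sq hP hE h.1 h.2) (hn s ns) (fun x hx => hN x (hE hx)) hp

end Three

section Mat

variable {F : Type} [Field F] {n q : ℕ}

theorem perm_diag (τ : Equiv.Perm (Fin n)) (d : Fin n → F) :
    τ.permMatrix F * diagonal d = diagonal (fun i => d (τ i)) * τ.permMatrix F := by
  ext i j
  rw [mul_diagonal, diagonal_mul, Equiv.Perm.permMatrix, PEquiv.toMatrix_apply]
  split_ifs with h
  · rw [Equiv.toPEquiv_apply, Option.mem_some_iff] at h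
    rw [h, mul_comm]
  · rw [zero_mul, mul_zero]

theorem su_ext {A B : SU n F q} (h : (A.1 : Matrix (Fin n) (Fin n) F) = B.1) : A = B := Subtype.ext (Subtype.ext h)

end Mat

variable {F : Type} [Field F] [Fintype F]

theorem row_U34 (hF : Fintype.card F = 4 ^ 2) : haveI : Fact (Nat.Prime 5) := ⟨by norm_num⟩; Row 5 (PSU 3 F 4) := by
  have h : ∀ y : ZMod 5, 1 + y + y * y ≠ 0 := by decide
  have : Fact (Nat.Prime 5) := ⟨by norm_num⟩
  have := finU 3 F 4
  have ho : Nat.card (Out (PSU 3 F 4)) = 4 := outU (r := 2) (f := 2) Nat.prime_two (by omega) rfl hF le_rfl (by omega)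
  have hs : Nat.card (PSU 3 F 4) = 62400 := cardU hF (by omega) (by decide)
  refine ⟨?_, row89_of_not_dvd (by rw [ho]; decide)⟩
  obtain ⟨x, x5, x1⟩ := exists_norm_one hF
  replace x5 : x ^ 5 = 1 := x5
  have n1 : ∀ k : ℕ, (x ^ k) ^ (4 + 1) = 1 := fun k => by rw [← pow_mul, mul_comm, pow_mul, x5, one_pow]
  let D : ∀ i j k : ℕ, (i + j + k) % 5 = 0 → SU 3 F 4 := fun i j k h => suDiag 4 ![x ^ i, x ^ j, x ^ k] (by
    rw [Fin.prod_univ_three]
    change x ^ i * x ^ j * x ^ k = 1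
    rw [← pow_add, ← pow_add, ← Nat.mod_add_div (i + j + k) 5, h, zero_add, pow_mul, x5, one_pow])
    (fun l => by fin_cases l <;> exact n1 _)
  let s : SU 3 F 4 := suPerm 4 (finRotate 3) (by decide)
  have sD : ∀ i j k h h', s * D i j k h = D j k i h' * s := fun i j k h h' => su_ext (by
    change (finRotate 3).permMatrix F * diagonal _ = diagonal _ * (finRotate 3).permMatrix F
    rw [perm_diag]
    congr 2
    funext l
    fin_cases l <;> rfl)
  let π := PSUAutBasic.pr 3 F 4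
  refine row88_of_three (a := π (D 1 4 0 rfl)) (b := π (D 4 0 1 rfl)) (c := π (D 0 1 4 rfl)) (s := π s)
    (by rw [card_aut (centerU hF le_rfl (by omega)), hs, ho]; decide) (fun k hk => ?_) (fun e => ?_) ?_ ?_ ?_
    (by rw [← map_mul, ← map_mul, sD _ _ _ rfl rfl]) (by rw [← map_mul, ← map_mul, sD _ _ _ rfl rfl])
  · refine h (k : ZMod 5) ?_
    exact_mod_cast (ZMod.intCast_zmod_eq_zero_iff_dvd _ 5).2 hk
  · have h := diag_eq le_rfl (PSUAutBasic.pr_eq_one_iff.1 e) 0 2
    exact x1 (by simpa [D, coe_suDiag] using h)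
  · rw [← map_pow, ← map_one π]
    refine congrArg π (su_ext ?_)
    change diagonal _ ^ 5 = 1
    rw [diagonal_pow, ← diagonal_one]
    congr 1
    funext l
    fin_cases l <;> exact n1 _
  · rw [← map_mul, ← map_mul]
    refine congrArg π (su_ext ?_)
    change diagonal _ * diagonal _ = diagonal _ * diagonal _
    rw [diagonal_mul_diagonal, diagonal_mul_diagonal]
    congr 1
    funext l
    exact mul_comm _ _
  · rw [← map_mul, ← map_mul, ← map_one π]
    refine congrArg π (su_ext ?_)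
    change diagonal _ * diagonal _ * diagonal _ = 1
    rw [diagonal_mul_diagonal, diagonal_mul_diagonal, ← diagonal_one]
    congr 1
    funext l
    fin_cases l <;> simp <;> linear_combination x5

/-- the `3`-rank of `Aut U₃(q)` if `3` divides `q + 1` and `81` does not divide the order -/
theorem rank_U3 {q : ℕ} (hF : Fintype.card F = q ^ 2) (h3 : 3 ∣ q + 1) (h : ¬ 3 ^ 4 ∣ Nat.card (MulAut (PSU 3 F q)))
    (E : Subgroup (MulAut (PSU 3 F q))) (hE : IsElementaryAbelian 3 E) : Nat.card E ≤ 3 ^ 2 := by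
  have := finU 3 F q
  have : Finite (MulAut (PSU 3 F q)) := Finite.of_injective _ (DFunLike.coe_injective (F := MulAut (PSU 3 F q)))
  obtain ⟨x, x3, x1⟩ : ∃ x : F, x ^ 3 = 1 ∧ x ≠ 1 := by
    obtain ⟨u, hu⟩ := exists_prime_orderOf_dvd_card' (G := rootsOfUnity (q + 1) F) 3
      (by rwa [GUBasic.card_rootsOfUnity_eq hF])
    refine ⟨((u : Fˣ) : F), ?_, fun e => ?_⟩
    · rw [← Units.val_pow_eq_pow_val, ← Subgroup.coe_pow, ← hu, pow_orderOf_eq_one]; rfl
    · rw [show u = 1 from Subtype.ext (Units.ext e), orderOf_one] at hu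
      omega
  have n3 : ∀ k : ℕ, (x ^ k) ^ 3 = 1 := fun k => by rw [← pow_mul, mul_comm, pow_mul, x3, one_pow]
  have n1 : ∀ k : ℕ, (x ^ k) ^ (q + 1) = 1 := fun k => by
    obtain ⟨m, hm⟩ := h3
    rw [hm, pow_mul, n3, one_pow]
  let D : ℕ → ℕ → ℕ → GU 3 F q := fun i j k => GUBasic.guDiag q ![x ^ i, x ^ j, x ^ k]
    (fun l => by fin_cases l <;> exact n1 _)
  let s : GU 3 F q := GUBasic.guPerm q (finRotate 3)
  let f : GU 3 F q →* MulAut (PSU 3 F q) := MonoidHom.mk' (fun A => PSUAutCount.toAut A 1) (H740.Cyc.toAut_mul_one hF)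
  have sD : ∀ i j k, s * D i j k = D j k i * s := fun i j k => PSUAutCount.gm_inj (by
    change (finRotate 3).permMatrix F * diagonal _ = diagonal _ * (finRotate 3).permMatrix F
    rw [perm_diag]
    congr 2
    funext l
    fin_cases l <;> rfl)
  have DD : ∀ i j k i' j' k', D i j k * D i' j' k' = D (i + i') (j + j') (k + k') := fun i j k i' j' k' =>
    PSUAutCount.gm_inj (by
      change diagonal _ * diagonal _ = diagonal _
      rw [diagonal_mul_diagonal]
      congr 1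
      funext l
      fin_cases l <;> exact (pow_add _ _ _).symm)
  have Dc : ∀ i j k, D (i + 3) j k = D i j k ∧ D i (j + 3) k = D i j k ∧ D i j (k + 3) = D i j k := fun i j k => by
    simp only [D, pow_add, x3, mul_one, and_self]
  have D1 : ∀ i, f (D i i i) = 1 := fun i => H740.Cyc.toAut_eq_one_of_scalar hF (n1 i) (by
    change diagonal _ = _
    rw [smul_one_eq_diagonal]
    congr 1
    funext l
    fin_cases l <;> rfl)
  have D3 : ∀ i j k, f (D i j k) ^ 3 = 1 := fun i j k => by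
    rw [← map_pow, ← map_one f]
    refine congrArg f (PSUAutCount.gm_inj ?_)
    change diagonal _ ^ 3 = 1
    rw [diagonal_pow, ← diagonal_one]
    congr 1
    funext l
    fin_cases l <;> exact n3 _
  have R : H859.Heis.Rel 3 (f s) (f (D 0 0 1)) (f (D 0 2 1)) := by
    refine ⟨?_, D3 _ _ _, D3 _ _ _, ?_, ?_, ?_, fun e => ?_⟩
    · rw [← map_pow, ← map_one f]
      refine congrArg f (PSUAutCount.gm_inj ?_)
      change (finRotate 3).permMatrix F ^ 3 = 1
      ext i j
      fin_cases i <;> fin_cases j <;>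
        simp [pow_succ, mul_apply, Fin.sum_univ_three, Equiv.Perm.permMatrix, PEquiv.toMatrix_apply]
    · rw [← map_mul, sD, map_mul, ← mul_one (f (D 0 2 1)), ← D1 2, ← map_mul f (D 0 2 1), DD, (Dc 2 1 (1 + 2)).2.1,
        (Dc 2 1 0).2.2]
    · rw [← map_mul, ← map_mul, DD, DD]
    · rw [← map_mul, ← map_mul, ← map_mul, mul_assoc, DD, sD, map_mul, map_mul, ← mul_one (f (D 0 0 1)), ← D1 2,
        ← map_mul f (D 0 0 1), DD, (Dc 2 2 0).2.2]
    · obtain ⟨-, c, -, hc⟩ := PSUAutCount.eq_of_toAut_eq hF le_rfl (H740.Cyc.toAut_one_one.trans e.symm)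
      have h0 := congrFun (congrFun hc 0) 0
      have h2 := congrFun (congrFun hc 2) 2
      change diagonal _ 0 0 = c * (1 : Matrix (Fin 3) (Fin 3) F) 0 0 at h0
      change diagonal _ 2 2 = c * (1 : Matrix (Fin 3) (Fin 3) F) 2 2 at h2
      simp at h0 h2
      exact x1 (h2.trans h0.symm)
  refine card_le_of_not_elemAb h (H859.Heis.isPGroup R) (fun e => H859.Heis.not_comm R ?_) E hE
  exact elemAb_comm e (H859.Heis.b_mem R) (H859.Heis.a_mem R)

theorem row_U35 (hF : Fintype.card F = 5 ^ 2) : Row 3 (PSU 3 F 5) := by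
  have := finU 3 F 5
  have ho : Nat.card (Out (PSU 3 F 5)) = 6 := outU (r := 5) (f := 1) (by norm_num) le_rfl rfl hF le_rfl (by omega)
  have hs : Nat.card (PSU 3 F 5) = 126000 := cardU hF (by omega) (by decide)
  exact (noOff_of_reach (k := 4) (m := 2) (fun x hx => reach_U3 hF (by omega) (hx ▸ Nat.prime_three))
    (rank_U3 hF (by decide) (by rw [card_aut (centerU hF le_rfl (by omega)), hs, ho]; decide))
    (lbU hF (by decide) le_rfl (by omega) (by unfold ExU; decide)) (by decide)).row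

theorem up3 : UP3 := by
  rintro p _ F _ _ q hF (⟨rfl, rfl⟩ | ⟨rfl, rfl⟩)
  · exact row_U34 hF
  · exact row_U35 hF

end Cfsg.Agent.TwoF.XL
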