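import Cfsg.Agent.TwoF.XL.L62
import Cfsg.Agent.TwoF.XL.UP3
import Cfsg.Agent.TwoF.XL.Un2.Row

/-!
# TwoF / XL: the row `L₃(4)`, `p = 3` (helper1)

If `Y` induces `PGL₃(4)` and centralises `Z(K)`, the transvection groups `2 ^ 4` lift to `Y` equivariantly.
-/

set_option autoImplicit false

namespace Cfsg.Agent.TwoF.XL

open Module Gen XE Subgroup Matrix
open Cfsg.Agent.ClassicalGeometry Cfsg.Agent.ClassicalGeometry.AutPSL.Root
open Cfsg.Agent.H199.PslAut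

namespace L34

theorem cube_eq_one {Y : Type*} [Group Y] {x y d e : Y} (he : e ∈ center Y) (h : y * x * y⁻¹ = x * e)
    (hd : y⁻¹ * (d * y * d⁻¹) ∈ center Y) (hn : x * (d * x * d⁻¹) * (d * (d * x * d⁻¹) * d⁻¹) ∈ center Y) :
    e ^ 3 = 1 := by
  have key : ∀ u, y * u * y⁻¹ = u * e → y * (d * u * d⁻¹) * y⁻¹ = d * u * d⁻¹ * e := fun u hu => by
    have h1 := mem_center_iff.1 hd (d * u * d⁻¹)
    calc y * (d * u * d⁻¹) * y⁻¹
        = y * (d * u * d⁻¹ * (y⁻¹ * (d * y * d⁻¹))) * (y⁻¹ * (d * y * d⁻¹))⁻¹ * y⁻¹ := by group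
      _ = d * (y * u * y⁻¹) * d⁻¹ := by rw [h1]; group
      _ = _ := by rw [hu, mul_assoc, mul_assoc, ← mem_center_iff.1 he, ← mul_assoc, ← mul_assoc]
  have h1 := key x h
  have h2 := key _ h1
  have h3 := mem_center_iff.1 hn y
  have c : ∀ u, e * u = u * e := fun u => (mem_center_iff.1 he u).symm
  rw [← mul_inv_eq_iff_eq_mul, ← conj_mul, ← conj_mul, h, h1, h2] at h3
  generalize d * (d * x * d⁻¹) * d⁻¹ = w at h3
  generalize d * x * d⁻¹ = v at h3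
  rw [mul_assoc x, ← mul_assoc e, c v, mul_assoc v, ← mul_assoc x, mul_assoc (x * v), ← mul_assoc (e * e),
    mul_assoc e, c w, ← mul_assoc e, c w, mul_assoc w, mul_assoc w, ← mul_assoc (x * v), mul_eq_left] at h3
  rw [pow_succ, pow_two, h3]

/-- the equivariant lift of a group `E` with abelian preimage -/
theorem exists_R {Y G : Type*} [Group Y] [Group G] {φ : Y →* G} (hZ : ∀ x, φ x = 1 → x ∈ center Y) {E : Subgroup G}
    (hc : ∀ x, φ x ∈ E → ∀ y, φ y ∈ E → x * y = y * x) {s : Y} (hs : ∀ x, φ x ∈ E → φ (s * x * s⁻¹) ∈ E)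
    (h1 : ∀ x, φ x ∈ E → φ (s * x * s⁻¹) = φ x → φ x = 1) :
    ∃ R : Subgroup Y, (∀ x, φ x ∈ E → x⁻¹ * (s * x * s⁻¹) ∈ R) ∧ (∀ x ∈ R, φ x ∈ E) ∧ (∀ x ∈ R, φ x = 1 → x = 1) ∧
      ∀ y, (∀ x, φ x ∈ E → φ (y * x * y⁻¹) ∈ E) → φ (y * s * y⁻¹ * s⁻¹) ∈ E → ∀ x ∈ R, y * x * y⁻¹ ∈ R := by
  have m : ∀ {x y}, φ x ∈ E → φ y ∈ E → φ (x * y) ∈ E := fun hx hy => map_mul φ _ _ ▸ mul_mem hx hy
  have i : ∀ {x}, φ x ∈ E → φ x⁻¹ ∈ E := fun hx => map_inv φ _ ▸ inv_mem hx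
  refine ⟨{ carrier := {x | ∃ u, φ u ∈ E ∧ x = u⁻¹ * (s * u * s⁻¹)}
            one_mem' := ⟨1, map_one φ ▸ one_mem E, by group⟩
            mul_mem' := ?_
            inv_mem' := ?_ }, fun x hx => ⟨x, hx, rfl⟩, ?_, ?_, ?_⟩
  · rintro _ _ ⟨u, hu, rfl⟩ ⟨v, hv, rfl⟩
    refine ⟨u * v, m hu hv, ?_⟩
    rw [← mul_assoc _ v⁻¹, hc _ (m (i hu) (hs u hu)) _ (i hv)]
    group
  · rintro _ ⟨u, hu, rfl⟩
    refine ⟨u⁻¹, i hu, ?_⟩
    rw [← hc _ (hs u hu) _ (i hu)]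
    group
  · rintro _ ⟨u, hu, rfl⟩
    exact m (i hu) (hs u hu)
  · rintro _ ⟨u, hu, rfl⟩ h
    rw [map_mul, map_inv, inv_mul_eq_one] at h
    rw [mem_center_iff.1 (hZ u (h1 u hu h.symm)) s]
    group
  · rintro y hy hq _ ⟨u, hu, rfl⟩
    refine ⟨_, hy u hu, ?_⟩
    have := hc _ hq _ (hs _ (hy u hu))
    calc _ = (y * u * y⁻¹)⁻¹ * ((y * s * y⁻¹ * s⁻¹) * (s * (y * u * y⁻¹) * s⁻¹)) * (y * s * y⁻¹ * s⁻¹)⁻¹ := by group
      _ = _ := by rw [this]; group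

variable {F : Type} [Field F] {n : ℕ}

/-- reflections -/
def rf (a χ : Fin n → F) (h : χ ⬝ᵥ a = 1) (c : F) (hc : c ≠ 0) : GL (Fin n) F where
  val := 1 + (c - 1) • vecMulVec a χ
  inv := 1 + (c⁻¹ - 1) • vecMulVec a χ
  val_inv := by
    rw [add_mul, mul_add, mul_add, smul_mul_smul_comm, vecMulVec_mul_vecMulVec, h, one_smul, one_mul, one_mul, mul_one]
    have := mul_inv_cancel₀ hc
    linear_combination (norm := module) this • vecMulVec a χ
  inv_val := by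
    rw [add_mul, mul_add, mul_add, smul_mul_smul_comm, vecMulVec_mul_vecMulVec, h, one_smul, one_mul, one_mul, mul_one]
    have := mul_inv_cancel₀ hc
    linear_combination (norm := module) this • vecMulVec a χ

theorem rf_mulVec {a χ : Fin n → F} (h : χ ⬝ᵥ a = 1) {c : F} (hc : c ≠ 0) (x : Fin n → F) :
    (rf a χ h c hc).1 *ᵥ x = x + ((c - 1) * (χ ⬝ᵥ x)) • a := by
  show (1 + (c - 1) • vecMulVec a χ) *ᵥ x = _
  rw [add_mulVec, one_mulVec, smul_mulVec, vecMulVec_mulVec, op_smul_eq_smul, smul_smul]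

theorem vecMul_rf_inv {a χ : Fin n → F} (h : χ ⬝ᵥ a = 1) {c : F} (hc : c ≠ 0) (f : Fin n → F) :
    f ᵥ* ((rf a χ h c hc)⁻¹).1 = f + ((c⁻¹ - 1) * (f ⬝ᵥ a)) • χ := by
  show f ᵥ* (1 + (c⁻¹ - 1) • vecMulVec a χ) = _
  rw [vecMul_add, vecMul_one, vecMul_smul, vecMul_vecMulVec, smul_smul]

theorem exists_dual {a b : Fin n → F} (hb : b ≠ 0) (h : ∀ c : F, a ≠ c • b) : ∃ χ, χ ⬝ᵥ a = 1 ∧ χ ⬝ᵥ b = 0 := by
  by_contra e
  push Not at e
  obtain ⟨c, hc⟩ := exists_smul_of_ker_le (φ := a) hb fun x hx => by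
    by_contra h
    exact e ((a ⬝ᵥ x)⁻¹ • x) (by rw [smul_dotProduct, dotProduct_comm x, smul_eq_mul, inv_mul_cancel₀ h])
      (by rw [smul_dotProduct, dotProduct_comm x, hx, smul_zero])
  exact h c hc

theorem eq_smul_dot {C : GL (Fin n) F} {f : Fin n → F} {l : F} (hl : f ᵥ* (C⁻¹).1 = l • f) (x : Fin n → F) :
    f ⬝ᵥ x = l * f ⬝ᵥ C.1 *ᵥ x := by
  rw [← AutPSL.Auto.vecMul_inv_dotProduct C x f, hl, smul_dotProduct, smul_eq_mul]

theorem comm_rf {C : GL (Fin n) F} {e f : Fin n → F} (h : f ⬝ᵥ e = 1) {l c : F} (hl : f ᵥ* (C⁻¹).1 = l • f)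
    (hc : c ≠ 0) : ∃ (t : Fin n → F) (ht : f ⬝ᵥ t = 0), C * rf e f h c hc * C⁻¹ * (rf e f h c hc)⁻¹ = tr t f ht := by
  have h1 := eq_smul_dot hl e
  have h2 : f ⬝ᵥ (1 - c⁻¹) • (l • C.1 *ᵥ e - e) = 0 := by
    rw [dotProduct_smul, dotProduct_sub, dotProduct_smul, smul_eq_mul l, ← h1, sub_self, smul_zero]
  refine ⟨_, h2, ?_⟩
  rw [mul_inv_eq_iff_eq_mul, mul_inv_eq_iff_eq_mul]
  refine Units.ext (mulVec_injective (funext fun x => ?_))
  simp only [Units.val_mul, ← mulVec_mulVec]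
  refine Eq.trans ?_ (tr_mulVec _ _ h2 _).symm
  rw [rf_mulVec, rf_mulVec, mulVec_add, mulVec_smul, dotProduct_add, dotProduct_smul, h, eq_smul_dot hl x, smul_eq_mul]
  have := mul_inv_cancel₀ hc
  linear_combination (norm := module) (this.symm.trans rfl) • (f ⬝ᵥ C.1 *ᵥ x) • (e - l • C.1 *ᵥ e)

/-- an element that centralises the transvections with axis `f` is one of them -/
theorem exists_moved (hn : 2 ≤ n) {C : GL (Fin n) F} {φ : Fin n → F} (hφ : φ ≠ 0) {l : F} (hl : φ ᵥ* (C⁻¹).1 = l • φ)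
    (h1 : ∀ a h, Psi n F C ≠ MulAut.conj (pr (tr a φ h))) : ∃ a, φ ⬝ᵥ a = 0 ∧ l • C.1 *ᵥ a ≠ a := by
  by_contra e
  push Not at e
  obtain ⟨x, hx⟩ := exists_dot_one hφ
  have h2 := eq_smul_dot hl x
  have l0 : l ≠ 0 := by
    rintro rfl
    rw [hx, zero_mul] at h2
    exact one_ne_zero h2
  have h3 : φ ⬝ᵥ (l • C.1 *ᵥ x - x) = 0 := by rw [dotProduct_sub, dotProduct_smul, smul_eq_mul, ← h2, sub_self]
  refine h1 _ h3 ?_
  rw [← Psi_coe, Psi_eq_Psi_iff hn]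
  refine ⟨(Units.mk0 l l0)⁻¹, Units.ext ?_⟩
  rw [Units.val_mul, coe_scal, scalar_apply, ← smul_one_eq_diagonal, smul_mul_assoc, Matrix.one_mul,
    Units.val_inv_eq_inv_val, Units.val_mk0, eq_inv_smul_iff₀ l0]
  refine mulVec_injective (funext fun v => ?_)
  have h5 := e (v - (φ ⬝ᵥ v) • x) (by rw [dotProduct_sub, dotProduct_smul, hx, smul_eq_mul, mul_one, sub_self])
  rw [mulVec_sub, mulVec_smul] at h5
  rw [smul_mulVec]
  refine Eq.trans ?_ (tr_mulVec _ φ h3 v).symm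
  linear_combination (norm := module) h5

theorem cayley (t : Matrix (Fin 3) (Fin 3) F) : ∃ a b : F, t * t * t = a • (t * t) + b • t + t.det • 1 := by
  refine ⟨t 0 0 + t 1 1 + t 2 2, t 0 1 * t 1 0 + t 0 2 * t 2 0 + t 1 2 * t 2 1 - t 0 0 * t 1 1 - t 0 0 * t 2 2 -
    t 1 1 * t 2 2, ?_⟩
  ext i j
  fin_cases i <;> fin_cases j <;> simp [mul_apply, Fin.sum_univ_three, det_fin_three] <;> ring

variable [Fintype F]

theorem cube_one (hF : Fintype.card F = 4) {x : F} (hx : x ≠ 0) : x ^ 3 = 1 := by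
  have := FiniteField.pow_card_sub_one_eq_one x hx
  rwa [hF] at this

theorem exists_om (hF : Fintype.card F = 4) : ∃ ω : F, ω ^ 2 + ω + 1 = 0 ∧ ω ≠ 0 ∧ ω ≠ 1 := by
  classical
  obtain ⟨x, hx⟩ : ∃ x : F, x ∉ ({0, 1} : Finset F) := by
    by_contra e
    push Not at e
    have := (Finset.card_le_card fun x _ => e x : (Finset.univ : Finset F).card ≤ _).trans Finset.card_le_two
    rw [Finset.card_univ] at this
    omega
  rw [Finset.mem_insert, Finset.mem_singleton, not_or] at hx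
  exact ⟨x, (mul_eq_zero.1 (show (x - 1) * (x ^ 2 + x + 1) = 0 by linear_combination cube_one hF hx.1)).resolve_left
    (sub_ne_zero.2 hx.2), hx⟩

/-- inner automorphisms of order three have an eigenvector -/
theorem exists_eig (hF : Fintype.card F = 4) {t : SLn 3 F} (h : pr t ^ 3 = 1) :
    ∃ (f : Fin 3 → F) (l : F), f ≠ 0 ∧ f ᵥ* ((t : GL (Fin 3) F)⁻¹).1 = l • f := by
  obtain ⟨c, hc⟩ := exists_smul_of_pr_eq (x := 1) (y := t ^ 3) (by rw [map_one, map_pow, h])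
  replace hc : t.1 * t.1 * t.1 = c • 1 := by rw [← pow_three']; exact hc
  suffices h : ∃ l : F, l ≠ 0 ∧ (t.1 - l • 1).det = 0 by
    obtain ⟨l, l0, hl⟩ := h
    obtain ⟨f, f0, e⟩ := exists_vecMul_eq_zero_iff.2 hl
    rw [vecMul_sub, vecMul_smul, vecMul_one, sub_eq_zero] at e
    refine ⟨f, l⁻¹, f0, ?_⟩
    rw [eq_inv_smul_iff₀ l0, ← smul_vecMul, ← e, vecMul_vecMul]
    exact (congrArg _ (t : GL (Fin 3) F).mul_inv).trans (vecMul_one f)
  by_contra e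
  push Not at e
  have one : ∀ {x : F}, x • (1 : Matrix (Fin 3) (Fin 3) F) = 0 → x = 0 := fun h => by
    simpa using congrFun (congrFun h 0) 0
  obtain ⟨ω, h1, h2, h3⟩ := exists_om hF
  have c1 : c ≠ 1 := by
    rintro rfl
    refine e (ω ^ 2) (pow_ne_zero _ h2) ?_
    rw [eq_zero_of_det (e ω h2) (eq_zero_of_det (e 1 one_ne_zero) (B := (t.1 - ω • 1) * (t.1 - ω ^ 2 • 1)) ?_), det_zero]
    simp only [sub_mul, mul_sub, ← Matrix.mul_assoc, hc, smul_mul_assoc, Matrix.mul_smul, Matrix.one_mul,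
      Matrix.mul_one]
    linear_combination (norm := module) h1 • (ω • t.1 - t.1 * t.1) - (cube_one hF h2) • (1 : Matrix (Fin 3) (Fin 3) F)
  obtain ⟨a, b, hab⟩ := cayley t.1
  rw [hc, t.2] at hab
  have d0 := sub_ne_zero.2 c1
  have e1 : (c - 1) • (t.1 * t.1) = (a * c) • t.1 + (b * c) • (1 : Matrix _ _ F) := by
    have := congrArg (t.1 * t.1 * ·) hab
    simp only [mul_add, Matrix.mul_smul, Matrix.mul_one, ← Matrix.mul_assoc, hc, smul_mul_assoc, Matrix.one_mul] at this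
    linear_combination (norm := module) this
  obtain ⟨u, v, e2⟩ : ∃ u v : F, t.1 * t.1 = u • t.1 + v • (1 : Matrix _ _ F) :=
    ⟨(c - 1)⁻¹ * (a * c), (c - 1)⁻¹ * (b * c), by rw [mul_smul, mul_smul _ (b * c), ← smul_add, ← e1, inv_smul_smul₀ d0]⟩
  have e3 : (u * u + v) • t.1 = (c - u * v) • (1 : Matrix _ _ F) := by
    rw [e2, add_mul, smul_mul_assoc, smul_mul_assoc, e2, Matrix.one_mul] at hc
    linear_combination (norm := module) hc
  have c0 : c ≠ 0 := by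
    rintro rfl
    have := congrArg det hc
    rw [det_mul, det_mul, t.2, zero_smul, det_zero] at this
    simp at this
  by_cases h4 : u * u + v = 0
  · rw [h4, zero_smul] at e3
    have e4 : c = (-u) ^ 3 := by linear_combination one e3.symm + u * h4
    exact c1 (e4.trans (cube_one hF fun e => c0 (by rw [e4, e, zero_pow (by omega)])))
  · have e4 : t.1 = ((u * u + v)⁻¹ * (c - u * v)) • (1 : Matrix _ _ F) := by rw [mul_smul, ← e3, inv_smul_smul₀ h4]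
    refine e ((u * u + v)⁻¹ * (c - u * v)) (fun e5 => ?_) (by rw [← e4, sub_self, det_zero])
    have := t.2
    rw [e4, e5, zero_smul, det_zero] at this
    exact zero_ne_one this

/-- automorphisms of order three are linear -/
theorem exists_Psi (hF : Fintype.card F = 4) {α : MulAut (PL 3 F)} (h : α ^ 3 = 1) : ∃ C, α = Psi 3 F C := by
  have hσ : ∀ σ : F ≃+* F, σ * σ = 1 := Un2.aut_sq hF
  have h2 : ∃ C, α * α = Psi 3 F C := by
    rcases exists_form (by omega) α with ⟨g, σ, rfl⟩ | ⟨-, g, σ, rfl⟩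
    · exact ⟨g * mapGL σ g, by rw [mul_assoc, ← mul_assoc (phi 3 F σ), phi_mul_Psi, mul_assoc, ← map_mul (phi 3 F), hσ,
        map_one, mul_one, map_mul]⟩
    · refine ⟨g * mapGL σ (itGL g), ?_⟩
      calc _ = Psi 3 F g * (phi 3 F σ * (iot 3 F * Psi 3 F g)) * (phi 3 F σ * iot 3 F) := by group
        _ = Psi 3 F g * Psi 3 F (mapGL σ (itGL g)) * (phi 3 F σ * (iot 3 F * phi 3 F σ) * iot 3 F) := by
          rw [iot_mul_Psi, ← mul_assoc (phi 3 F σ), phi_mul_Psi]; group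
        _ = _ := by
          rw [iot_mul_phi, ← mul_assoc (phi 3 F σ), ← map_mul (phi 3 F), hσ, map_one, one_mul, iot_mul_iot, mul_one, map_mul]
  obtain ⟨C, hC⟩ := h2
  exact ⟨C * C, by rw [map_mul, ← hC, ← mul_assoc, ← pow_three', h, one_mul]⟩

/-- the `3`-rank of `Aut L₃(4)` -/
theorem rank (hF : Fintype.card F = 4) (h : ¬ 3 ^ 4 ∣ Nat.card (MulAut (PL 3 F)))
    (E : Subgroup (MulAut (PL 3 F))) (hE : IsElementaryAbelian 3 E) : Nat.card E ≤ 3 ^ 2 := by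
  have := finL 3 F
  have : Finite (MulAut (PL 3 F)) := Finite.of_injective _ (DFunLike.coe_injective (F := MulAut (PL 3 F)))
  obtain ⟨x, -, x0, x1⟩ := exists_om hF
  have x3 := cube_one hF x0
  have n3 : ∀ k : ℕ, (x ^ k) ^ 3 = 1 := fun k => cube_one hF (pow_ne_zero _ x0)
  let D : ℕ → ℕ → ℕ → GL (Fin 3) F := fun i j k => GeneralLinearGroup.mkOfDetNeZero (diagonal ![x ^ i, x ^ j, x ^ k])
    (by
      rw [det_diagonal, Fin.prod_univ_three]
      exact mul_ne_zero (mul_ne_zero (pow_ne_zero _ x0) (pow_ne_zero _ x0)) (pow_ne_zero _ x0))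
  let s : GL (Fin 3) F := GeneralLinearGroup.mkOfDetNeZero ((finRotate 3).permMatrix F) (by
    rw [det_permutation, show Equiv.Perm.sign (finRotate 3) = 1 by decide]; simp)
  let f := Psi 3 F
  have sD : ∀ i j k, s * D i j k = D j k i * s := fun i j k => Units.ext (by
    change (finRotate 3).permMatrix F * diagonal _ = diagonal _ * (finRotate 3).permMatrix F
    rw [perm_diag]
    congr 2
    funext l
    fin_cases l <;> rfl)
  have DD : ∀ i j k i' j' k', D i j k * D i' j' k' = D (i + i') (j + j') (k + k') := fun i j k i' j' k' =>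
    Units.ext (by
      change diagonal _ * diagonal _ = diagonal _
      rw [diagonal_mul_diagonal]
      congr 1
      funext l
      fin_cases l <;> exact (pow_add _ _ _).symm)
  have Dc : ∀ i j k, D (i + 3) j k = D i j k ∧ D i (j + 3) k = D i j k ∧ D i j (k + 3) = D i j k := fun i j k => by
    simp only [D, pow_add, x3, mul_one, and_self]
  have D1 : ∀ i, f (D i i i) = 1 := fun i => (Psi_eq_one_iff (by omega)).2 ⟨Units.mk0 x x0 ^ i, Units.ext (by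
    change diagonal _ = diagonal _
    congr 1
    funext l
    fin_cases l <;> simp)⟩
  have D3 : ∀ i j k, f (D i j k) ^ 3 = 1 := fun i j k => by
    rw [← map_pow, ← map_one f]
    refine congrArg f (Units.ext ?_)
    change diagonal _ ^ 3 = 1
    rw [diagonal_pow, ← diagonal_one]
    congr 1
    funext l
    fin_cases l <;> exact n3 _
  have R : H859.Heis.Rel 3 (f s) (f (D 0 0 1)) (f (D 0 2 1)) := by
    refine ⟨?_, D3 _ _ _, D3 _ _ _, ?_, ?_, ?_, fun e => ?_⟩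
    · rw [← map_pow, ← map_one f]
      refine congrArg f (Units.ext ?_)
      change (finRotate 3).permMatrix F ^ 3 = 1
      ext i j
      fin_cases i <;> fin_cases j <;>
        simp [pow_succ, mul_apply, Fin.sum_univ_three, Equiv.Perm.permMatrix, PEquiv.toMatrix_apply]
    · rw [← map_mul, sD, map_mul, ← mul_one (f (D 0 2 1)), ← D1 2, ← map_mul f (D 0 2 1), DD, (Dc 2 1 (1 + 2)).2.1,
        (Dc 2 1 0).2.2]
    · rw [← map_mul, ← map_mul, DD, DD]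
    · rw [← map_mul, ← map_mul, ← map_mul, mul_assoc, DD, sD, map_mul, map_mul, ← mul_one (f (D 0 0 1)), ← D1 2,
        ← map_mul f (D 0 0 1), DD, (Dc 2 2 0).2.2]
    · obtain ⟨c, hc⟩ := (Psi_eq_one_iff (by omega)).1 e
      have h0 : ∀ i, ![x ^ 0, x ^ 2, x ^ 1] i = (c : F) := fun i => (diagonal_apply_eq _ i).symm.trans
        ((congrArg (fun g : GL (Fin 3) F => g.1 i i) hc).trans (diagonal_apply_eq _ i))
      exact x1 ((pow_one x).symm.trans (((h0 2).trans (h0 0).symm).trans (pow_zero x)))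
  refine card_le_of_not_elemAb h (H859.Heis.isPGroup R) (fun e => H859.Heis.not_comm R ?_) E hE
  exact elemAb_comm e (H859.Heis.b_mem R) (H859.Heis.a_mem R)

omit [Fintype F] in
/-- transvections as automorphisms -/
noncomputable abbrev T (a f : Fin n → F) (h : f ⬝ᵥ a = 0) : MulAut (PL n F) := MulAut.conj (pr (tr a f h))

section T

variable {a b f : Fin n → F} {h : f ⬝ᵥ a = 0} {h' : f ⬝ᵥ b = 0}

omit [Fintype F]

theorem T_congr (h' : f ⬝ᵥ b = 0) (e : a = b) : T a f h = T b f h' := by subst e; rfl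

theorem T_mul : T a f h * T b f h' = T (a + b) f (by rw [dotProduct_add, h, h', add_zero]) := by
  rw [← map_mul, ← map_mul, tr_mul_same_axis]

theorem T_zero (e : a = 0) : T a f h = 1 := by subst e; rw [T, tr_zero, map_one, map_one]

theorem T_conj {C : GL (Fin n) F} {l : F} (hl : f ᵥ* (C⁻¹).1 = l • f) (e : l • C.1 *ᵥ a = b) :
    Psi n F C * T a f h * (Psi n F C)⁻¹ = T b f h' := by
  obtain ⟨_, e'⟩ := Psi_tr C hl h
  subst e
  rw [← conj_apply, e']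

theorem T_inj (hZ : center (PL n F) = ⊥) (hf : f ≠ 0) (e : T a f h = T b f h') : a = b :=
  tr_inj hf (tr_eq_of_pr_eq ((injective_iff_map_eq_one _).2 (fun _ hx => (conj_eq_one_iff hZ).1 hx) e))

theorem mem_E {α : MulAut (PL n F)} : α ∈ ((Ax f ⊤).map pr).map MulAut.conj ↔ ∃ a h, α = T a f h :=
  ⟨by rintro ⟨_, ⟨_, ⟨a, -, h, rfl⟩, rfl⟩, rfl⟩; exact ⟨a, h, rfl⟩,
    by rintro ⟨a, h, rfl⟩; exact ⟨_, ⟨_, ⟨a, trivial, h, rfl⟩, rfl⟩, rfl⟩⟩

end T

variable {Y : Type} [Group Y] {φ : Y →* MulAut (PL 3 F)}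

theorem lift_comm (hF : Fintype.card F = 4) (hZ : ∀ x, φ x = 1 → x ∈ center Y) (h3 : ∀ x, x ^ 3 = 1 → φ x = 1 → x = 1)
    (hP : ∀ C, ∃ y, φ y = Psi 3 F C) {f a b : Fin 3 → F} (hf : f ≠ 0) {h : f ⬝ᵥ a = 0} {h' : f ⬝ᵥ b = 0} {x y : Y}
    (hx : φ x = T a f h) (hy : φ y = T b f h') : x * y = y * x := by
  obtain ⟨ω, o1, o2, -⟩ := exists_om hF
  by_cases b0 : b = 0
  · exact mem_center_iff.1 (hZ y (hy.trans (T_zero b0))) x
  have key : ∀ (a : Fin 3 → F) (h : f ⬝ᵥ a = 0) (x : Y), φ x = T a f h → (∀ c : F, a ≠ c • b) → Commute x y := by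
    intro a h x hx hab
    obtain ⟨χ, c1, c2⟩ := exists_dual b0 hab
    obtain ⟨d, hd⟩ := hP (rf a χ c1 ω o2)
    have hl : f ᵥ* ((rf a χ c1 ω o2)⁻¹).1 = (1 : F) • f := by
      rw [vecMul_rf_inv, h, mul_zero, zero_smul, add_zero, one_smul]
    have hs : ∀ c : F, f ⬝ᵥ c • a = 0 := fun c => by rw [dotProduct_smul, h, smul_zero]
    have cj : ∀ (c : F) (u : Y), φ u = T (c • a) f (hs c) → φ (d * u * d⁻¹) = T ((c * ω) • a) f (hs _) :=
      fun c u hu => by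
        rw [map_mul, map_mul, map_inv, hd, hu]
        refine T_conj hl ?_
        rw [rf_mulVec, dotProduct_smul, c1]
        module
    have e1 : φ (x⁻¹ * (y * x * y⁻¹)) = 1 := by
      rw [map_mul, map_mul, map_mul, map_inv, map_inv, hx, hy, inv_mul_eq_one, eq_mul_inv_iff_mul_eq, T_mul, T_mul]
      exact T_congr _ (add_comm _ _)
    have x1 : φ x = T ((1 : F) • a) f (hs 1) := hx.trans (T_congr _ (one_smul _ _).symm)
    have e2 := h3 _ (cube_eq_one (hZ _ e1) (mul_inv_cancel_left _ _).symm (d := d) (hZ _ ?_) (hZ _ ?_)) e1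
    · rw [inv_mul_eq_one, eq_mul_inv_iff_mul_eq] at e2
      exact e2
    · rw [map_mul, map_mul, map_mul, map_inv, map_inv, hd, hy, inv_mul_eq_one]
      refine (T_conj hl ?_).symm
      rw [rf_mulVec, c2, mul_zero, zero_smul, add_zero, one_smul]
    · rw [map_mul, map_mul, cj _ _ (cj _ _ x1), cj _ _ x1, x1, T_mul, T_mul]
      refine T_zero ?_
      linear_combination (norm := module) o1 • a
  by_cases hab : ∀ c : F, a ≠ c • b
  · exact key a h x hx hab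
  push Not at hab
  obtain ⟨c, rfl⟩ := hab
  obtain ⟨v, hv, i, j, hij⟩ := H912.Bd.exists_np_kr (by simp) hf b0
  replace hv : f ⬝ᵥ v = 0 := hv
  have h1 : ∀ c : F, v ≠ c • b := by
    rintro c rfl
    exact hij (by simp only [Pi.smul_apply, smul_eq_mul]; ring)
  obtain ⟨w, hw⟩ := hP (tr v f hv)
  rw [Psi_coe] at hw
  have h2 := (key _ _ (x * w) (by rw [map_mul, hx, hw, T_mul]) fun c' e => h1 (c' - c) (by
    rw [sub_smul, ← e, add_sub_cancel_left])).mul_left (key v hv w hw h1).inv_left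
  rwa [mul_inv_cancel_right] at h2

/-- the lift of the group of transvections with axis `f` -/
theorem exists_big [Finite Y] (hF : Fintype.card F = 4) (hZ : ∀ x, φ x = 1 → x ∈ center Y)
    (h3 : ∀ x, x ^ 3 = 1 → φ x = 1 → x = 1) (hP : ∀ C, ∃ y, φ y = Psi 3 F C) {f : Fin 3 → F} (hf : f ≠ 0) :
    ∃ R : Subgroup Y, (∀ a ∈ R, ∀ b ∈ R, a * b = b * a) ∧ (∀ a ∈ R, a ^ 2 = 1) ∧ Tr R ∧ Nat.card R = 2 ^ 4 ∧
      (∀ a h, ∃ x ∈ R, φ x = T a f h) ∧
      ∀ y C (l : F), φ y = Psi 3 F C → f ᵥ* (C⁻¹).1 = l • f → ∀ x ∈ R, y * x * y⁻¹ ∈ R := by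
  have : CharP F 2 := charP_of_card_eq_prime_pow (f := 2) hF
  have hS : center (PL 3 F) = ⊥ := centerL (by omega) (by omega)
  obtain ⟨ω, -, o2, o3⟩ := exists_om hF
  obtain ⟨e, he⟩ := exists_dot_one hf
  obtain ⟨s, hs⟩ := hP (rf e f he ω o2)
  have nm : ∀ {y C} {l : F}, φ y = Psi 3 F C → f ᵥ* (C⁻¹).1 = l • f → ∀ x a h, φ x = T a f h →
      ∃ h', φ (y * x * y⁻¹) = T (l • C.1 *ᵥ a) f h' := fun hy hl x a h hx =>
    ⟨(Psi_tr _ hl h).1, by rw [map_mul, map_mul, map_inv, hy, hx, T_conj hl rfl]⟩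
  have nm' : ∀ {y C} {l : F}, φ y = Psi 3 F C → f ᵥ* (C⁻¹).1 = l • f → ∀ x,
      φ x ∈ ((Ax f ⊤).map pr).map MulAut.conj → φ (y * x * y⁻¹) ∈ ((Ax f ⊤).map pr).map MulAut.conj :=
    fun hy hl x hx => by
      obtain ⟨a, h, hx⟩ := mem_E.1 hx
      exact mem_E.2 ⟨_, nm hy hl x a h hx⟩
  have hl : f ᵥ* ((rf e f he ω o2)⁻¹).1 = ω⁻¹ • f := by
    rw [vecMul_rf_inv, he]
    module
  have sa : ∀ x a h, φ x = T a f h → ∃ h', φ (s * x * s⁻¹) = T (ω⁻¹ • a) f h' := fun x a h hx => by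
    obtain ⟨h', e⟩ := nm hs hl x a h hx
    exact ⟨by rw [dotProduct_smul, h, smul_zero], e.trans (T_congr _ (by
      rw [rf_mulVec, h, mul_zero, zero_smul, add_zero]))⟩
  have o4 : ω⁻¹ - 1 ≠ 0 := sub_ne_zero.2 (inv_ne_one.2 o3)
  have hc : ∀ x, φ x ∈ ((Ax f ⊤).map pr).map MulAut.conj → ∀ y, φ y ∈ ((Ax f ⊤).map pr).map MulAut.conj →
      x * y = y * x := fun x hx y hy => by
    obtain ⟨a, h, hx⟩ := mem_E.1 hx
    obtain ⟨b, h', hy⟩ := mem_E.1 hy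
    exact lift_comm hF hZ h3 hP hf hx hy
  obtain ⟨R, r1, r2, r3, r4⟩ := exists_R hZ hc (nm' hs hl) fun x hx e => by
    obtain ⟨a, h, hx⟩ := mem_E.1 hx
    obtain ⟨h', e'⟩ := sa x a h hx
    refine hx.trans (T_zero ((smul_eq_zero_iff_right o4).1 ?_))
    rw [sub_smul, one_smul, T_inj hS hf (e'.symm.trans (e.trans hx)), sub_self]
  have r5 : ∀ a h, ∃ x ∈ R, φ x = T a f h := fun a h => by
    have h' : f ⬝ᵥ (ω⁻¹ - 1)⁻¹ • a = 0 := by rw [dotProduct_smul, h, smul_zero]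
    obtain ⟨u, hu⟩ := hP (tr _ f h')
    rw [Psi_coe] at hu
    obtain ⟨_, e⟩ := sa u _ h' hu
    refine ⟨_, r1 u (mem_E.2 ⟨_, h', hu⟩), ?_⟩
    rw [map_mul, map_inv, e, hu, inv_mul_eq_iff_eq_mul, T_mul]
    refine T_congr _ ?_
    linear_combination (norm := module) (mul_inv_cancel₀ o4) • a
  have r6 : ∀ y C (l : F), φ y = Psi 3 F C → f ᵥ* (C⁻¹).1 = l • f → ∀ x ∈ R, y * x * y⁻¹ ∈ R := fun y C l hy hl =>
    r4 y (nm' hy hl) (by
      obtain ⟨t, ht, e⟩ := comm_rf he hl o2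
      refine mem_E.2 ⟨t, ht, ?_⟩
      rw [T, ← Psi_coe, ← e]
      simp only [map_mul, map_inv, hy, hs])
  have r7 : ∀ x ∈ R, ∀ y ∈ R, φ x = φ y → x = y := fun x hx y hy e =>
    mul_inv_eq_one.1 (r3 _ (mul_mem hx (inv_mem hy)) (by rw [map_mul, map_inv, e, mul_inv_cancel]))
  refine ⟨R, fun a ha b hb => hc a (r2 a ha) b (r2 b hb), fun x hx => r3 _ (pow_mem hx 2) ?_, fun x hx x1 y hy y1 => ?_,
    ?_, r5, r6⟩
  · obtain ⟨_, ⟨u, hu, rfl⟩, e⟩ := r2 x hx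
    rw [map_pow, ← e, ← map_pow, ← map_pow, Ax_pow 2 u hu, map_one, map_one]
  · obtain ⟨a, h, ex⟩ := mem_E.1 (r2 x hx)
    obtain ⟨b, h', ey⟩ := mem_E.1 (r2 y hy)
    obtain ⟨g, g1, g2⟩ := H912.Bd.exists_sl_fix (H912.Bd.kr f) (fun _ h => h)
      (fun v _ hv => H912.Bd.exists_np_kr (by simp) hf hv) h h' (fun e => x1 (r3 x hx (ex.trans (T_zero e))))
      (fun e => y1 (r3 y hy (ey.trans (T_zero e))))
    obtain ⟨z, hz⟩ := hP g
    have g3 : f ᵥ* ((g : GL (Fin 3) F)⁻¹).1 = (1 : F) • f := by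
      rw [← map_inv, one_smul]
      exact g2
    refine ⟨z⁻¹, inv_mem (mem_normalizer_fintype (r6 z _ _ hz g3)), r7 _ (r6 z _ _ hz g3 x hx) y hy ?_ ▸ by rw [inv_inv]⟩
    obtain ⟨_, e⟩ := nm hz g3 x a h ex
    exact e.trans ((T_congr h' ((one_smul _ _).trans g1)).trans ey.symm)
  · choose θ θ1 θ2 using r5
    rw [← Nat.card_congr (Equiv.ofBijective (fun a : H912.Bd.kr f => (⟨θ a a.2, θ1 _ _⟩ : R)) ⟨fun a b e => Subtype.ext
      (T_inj hS hf ((θ2 a a.2).symm.trans ((congrArg (fun x : R => φ x) e).trans (θ2 b b.2)))), fun x => by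
        obtain ⟨a, h, ex⟩ := mem_E.1 (r2 x x.2)
        exact ⟨⟨a, h⟩, Subtype.ext (r7 _ (θ1 _ _) _ x.2 ((θ2 _ _).trans ex.symm))⟩⟩), H912.Bd.card_kr hf, hF]
    rfl

/-- an outer linear automorphism and the inner ones generate `PGL₃(4)` -/
theorem all_Psi (hF : Fintype.card F = 4) {H : Subgroup (MulAut (PL 3 F))} (hI : Inn (PL 3 F) ≤ H) {C : GL (Fin 3) F}
    (hC : Psi 3 F C ∈ H) (h : Psi 3 F C ∉ Inn (PL 3 F)) (D : GL (Fin 3) F) : Psi 3 F D ∈ H := by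
  have key : ∀ g : GL (Fin 3) F, GeneralLinearGroup.det g = 1 → Psi 3 F g ∈ Inn (PL 3 F) := fun g hg =>
    ⟨pr ⟨g.1, congrArg Units.val hg⟩, (Psi_coe _).symm.trans (congrArg _ (Units.ext rfl))⟩
  have : Fact (Nat.Prime 3) := ⟨by decide⟩
  obtain ⟨i, hi⟩ := mem_zpowers_of_prime_card (G := Fˣ) (p := 3) (by rw [Nat.card_units, Nat.card_eq_fintype_card, hF])
    (fun e => h (key C e)) (g' := GeneralLinearGroup.det D)
  have h1 := mul_mem (hI (key (D * (C ^ i)⁻¹) (by rw [map_mul, map_inv, map_zpow, ← hi, mul_inv_cancel]))) (zpow_mem hC i)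
  rwa [← map_zpow, ← map_mul, inv_mul_cancel_right] at h1

end L34

open L34 in
theorem row_L34 {F : Type} [Field F] [Fintype F] (hF : Fintype.card F = 4) : Row 3 (PL 3 F) := by
  have := finL 3 F
  have hS : center (PL 3 F) = ⊥ := centerL (by omega) (by omega)
  have ho : Nat.card (Out (PL 3 F)) = 12 := outL (r := 2) (f := 2) Nat.prime_two (by omega) hF le_rfl
  have hs : Nat.card (PL 3 F) = 20160 := cardL hF (by omega) (by decide)
  have hr := rank hF (by rw [card_aut hS, hs, ho]; decide)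
  refine ⟨row88_of_rank hr, row89_of_sit fun Y _ _ V _ _ _ K ρ π φ H A hA _ hKA hlin hK => False.elim ?_⟩
  have hZ : ∀ x, φ x = 1 → x ∈ center Y := fun x hx => by
    have h1 := H.toFrm.φ_eq_one_iff.1 hx
    refine mem_center_iff.2 fun g => ((sup_le (le_centralizer_iff.1 (zpowers_le.2 h1)) fun a ha => ?_ :
      K ⊔ A ≤ centralizer (zpowers x)) (hKA ▸ mem_top g) x (mem_zpowers x)).symm
    rintro _ ⟨i, rfl⟩
    refine Commute.zpow_left (H.faithful ?_) i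
    rw [map_mul, map_mul]
    exact hlin _ (fun k hk => by rw [← map_mul, ← map_mul, h1 k hk]) a ha
  have h3 : ∀ x, x ^ 3 = 1 → φ x = 1 → x = 1 := fun x hx => H.toStp.eq_one_of_φ H.toFrm (n := 1) hx
  have lin : ∀ a ∈ A, ∃ C, φ a = Psi 3 F C := fun a ha => exists_Psi hF (by rw [← map_pow, hA.1.2 a ha, map_one])
  obtain ⟨a, ha, aK⟩ := SetLike.not_le_iff_exists.1 hK
  obtain ⟨C, hC⟩ := lin a ha
  have hP : ∀ D, ∃ y, φ y = Psi 3 F D := all_Psi hF (H := φ.range) (H.toFrm.map_K ▸ map_le_range φ K) ⟨a, hC⟩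
    fun e => aK (H.toFrm.mem_inn_iff.1 (hC ▸ e))
  have h2 : ((2 : ℕ) : ZMod 3) ≠ 0 := by decide
  have big : ∀ {R : Subgroup Y}, (∀ a ∈ R, ∀ b ∈ R, a * b = b * a) → (∀ a ∈ R, a ^ 2 = 1) → Tr R → Nat.card R = 2 ^ 4 →
      15 ≤ cod ρ R := fun {R} r1 r2 r3 r4 => by
    have : Fact (Nat.Prime 2) := ⟨Nat.prime_two⟩
    obtain ⟨z, hz, z1⟩ := exists_ne_one (by omega) r4
    have := trans_lb (ρ := ρ) Nat.prime_two h2 r1 r2 r3 ⟨z, hz, fun e => z1 (H.faithful (e.trans (map_one ρ).symm))⟩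
    omega
  obtain ⟨r, r0, rm, hc, hd⟩ := off_data H hA hr
  interval_cases r
  · obtain ⟨R, r1, r2, r3, r4, -⟩ := exists_big hF hZ h3 hP (f := Pi.single 0 1) (by simp)
    have h4 := finrank_le_of_reach H (a := a) (k := 3 + 1) (hC ▸ reach_lin le_rfl fun e => aK
      (H.toFrm.mem_inn_iff.1 (by rw [hC, e]; exact one_mem _)))
    have h5 := cod_le_of_mem (ρ := ρ) ha
    have h6 : cod ρ R ≤ finrank (ZMod 3) V := Nat.sub_le _ _
    have := big r1 r2 r3 r4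
    omega
  obtain ⟨b, hb, bK, b1⟩ : ∃ b ∈ A, b ∈ K ∧ b ≠ 1 := by
    by_contra e
    push Not at e
    have h4 := H.toFrm.relIndex_dvd A
    rw [← inf_relIndex_right, (eq_bot_iff_forall (K ⊓ A)).2 fun x hx => e x hx.2 hx.1, relIndex_bot_left, hc, ho] at h4
    exact absurd h4 (by decide)
  obtain ⟨t, ht⟩ := pr_surjective (π ⟨b, bK⟩)
  have b3 := hA.1.2 b hb
  have hbt : φ b = Psi 3 F t := by rw [Psi_coe, ht]; exact H.toFrm.φ_coe ⟨b, bK⟩
  obtain ⟨f, l, hf, hl⟩ := exists_eig hF (t := t) (by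
    rw [ht, ← map_pow, show (⟨b, bK⟩ : K) ^ 3 = 1 from Subtype.ext b3, map_one])
  obtain ⟨R, r1, r2, r3, r4, r5, r6⟩ := exists_big hF hZ h3 hP hf
  obtain ⟨v, hv, hm⟩ := exists_moved (by omega) hf hl fun v h e => by
    obtain ⟨x, hx, ex⟩ := r5 v h
    refine b1 (h3 b b3 ?_)
    have e2 : φ b ^ 2 = 1 := by rw [hbt, e, ← T, ← ex, ← map_pow, r2 x hx, map_one]
    exact ((one_mul _).symm.trans (by rw [← e2, ← pow_succ, ← map_pow, b3])).trans (map_one φ)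
  obtain ⟨x, hx, ex⟩ := r5 v hv
  have nb := r6 b _ _ hbt hl
  have h4 := cod_elt_of_tr (ρ := ρ) Nat.prime_two h2 r1 r2 r3 (mul_mem (nb x hx) (inv_mem hx)) (fun e => hm (by
    rw [mul_inv_eq_one] at e
    replace e := congrArg φ e
    rw [map_mul, map_mul, map_inv, hbt, ex, T_conj (h' := (Psi_tr _ hl hv).1) hl rfl] at e
    exact T_inj hS hf e)) (m := 1) (by have := big r1 r2 r3 r4; omega)
  have h5 := cod_comm_le (ρ := ρ) (B := zpowers (b * x * b⁻¹ * x⁻¹)) r1 (by rw [r4]; decide) (s := 3) (n := 1) b3 nb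
    fun H h => zpowers_le.2 (h x hx)
  have h6 := cod_le_of_mem (ρ := ρ) hb
  omega

end Cfsg.Agent.TwoF.XL
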