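import Cfsg.Agent.TwoF.XL.Lin

/-!
# TwoF / XL: the row `L₆(2)`, `p = 3` (helper1)
-/

set_option autoImplicit false

namespace Cfsg.Agent.TwoF.XL

open Module Gen XE Subgroup Matrix
open Cfsg.Agent.ClassicalGeometry.AutPSL.Root
open Cfsg.Agent.H199.PslAut (Psi Psi_coe)

variable {F : Type} [Field F] {n : ℕ}

theorem eq_zero_of_det {A B : Matrix (Fin n) (Fin n) F} (h : A.det ≠ 0) (e : A * B = 0) : B = 0 :=
  ((isUnit_iff_isUnit_det A).2 (Ne.isUnit h)).mul_left_cancel (e.trans (Matrix.mul_zero A).symm)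

/-- two commuting matrices of order three -/
theorem det_three {a b : Matrix (Fin n) (Fin n) F} (ha : a ^ 3 = 1) (hb : b ^ 3 = 1) (h : a * b = b * a)
    (h1 : (a - 1).det ≠ 0) (h2 : (b - 1).det ≠ 0) (h3 : (a - b).det ≠ 0) : b = a ^ 2 := by
  have e : ∀ {x : Matrix (Fin n) (Fin n) F}, x ^ 3 = 1 → (x - 1).det ≠ 0 → x ^ 2 + x + 1 = 0 := fun {x} hx hd =>
    eq_zero_of_det hd (by rw [← sub_eq_zero.2 hx]; noncomm_ring)
  have e1 := e ha h1
  have e2 := e hb h2
  have e3 : a + b + 1 = 0 := eq_zero_of_det h3 (by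
    have e4 : (a - b) * (a + b + 1) = (a ^ 2 + a + 1) - (b ^ 2 + b + 1) + (a * b - b * a) := by noncomm_ring
    rw [e4, e1, e2, h, sub_self, sub_self, add_zero])
  rw [← sub_eq_zero, ← sub_eq_zero.2 (e3.trans e1.symm)]
  abel

theorem exists_fixed {a b : SLn n F} (h : (a.1 - b.1).det = 0) :
    ∃ φ : Fin n → F, φ ≠ 0 ∧ φ ᵥ* (((a * b⁻¹ : SLn n F) : GL (Fin n) F)⁻¹).1 = (1 : F) • φ := by
  obtain ⟨φ, h0, e⟩ := exists_vecMul_eq_zero_iff.2 h
  refine ⟨φ, h0, ?_⟩
  rw [vecMul_sub, sub_eq_zero] at e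
  have h1 : (((a * b⁻¹ : SLn n F) : GL (Fin n) F)⁻¹).1 = b.1 * (a⁻¹).1 := by
    rw [← map_inv, _root_.mul_inv_rev, inv_inv]
    rfl
  have h2 : a.1 * (a⁻¹).1 = 1 := congrArg Subtype.val (mul_inv_cancel a)
  rw [h1, ← vecMul_vecMul, ← e, vecMul_vecMul, h2, vecMul_one, one_smul]

variable [Fintype F]

theorem pr_inj (hn : 1 ≤ n) (h : Nat.gcd n (Fintype.card F - 1) = 1) : Function.Injective (pr : SLn n F →* PL n F) := by
  rw [← MonoidHom.ker_eq_bot_iff, QuotientGroup.ker_mk', ← card_eq_one, S0280.card_center_SL hn, h]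

theorem row_L62 (hF : Fintype.card F = 2) : Row 3 (PL 6 F) := by
  have := finL 6 F
  have : Finite (MulAut (PL 6 F)) := Finite.of_injective _ (DFunLike.coe_injective (F := MulAut (PL 6 F)))
  have : CharP F 2 := charP_of_card_eq_prime hF
  have hZ : center (PL 6 F) = ⊥ := centerL (by omega) (by omega)
  have ho : Nat.card (Out (PL 6 F)) = 2 := outL (r := 2) (f := 1) Nat.prime_two le_rfl hF (by omega)
  have hs : Nat.card (PL 6 F) = 20158709760 := cardL hF (by omega) (by decide)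
  have h3 : ¬ 3 ∣ Nat.card (Out (PL 6 F)) := by rw [ho]; decide
  refine ⟨row88_of_lo fun E hE r hr hc => ?_, row89_of_not_dvd h3⟩
  have h4 := card_le_of_not_dvd (r₀ := 4) (by rw [card_aut hZ, hs, ho]; decide) E hE
  rw [hc, Nat.pow_le_pow_iff_right (by omega)] at h4
  replace hr : 2 < r := hr
  have hi := pr_inj (n := 6) (F := F) (by omega) (by rw [hF]; rfl)
  have lift : ∀ α ∈ E, α ≠ 1 → ∃ a : SLn 6 F, α = MulAut.conj (pr a) ∧ a ^ 3 = 1 := fun α hα h1 => by
    obtain ⟨x, e, -, x3⟩ := exists_inner hZ h3 h1 (hE.2 α hα)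
    obtain ⟨a, rfl⟩ := pr_surjective x
    exact ⟨a, e, hi (by rw [map_pow, x3, map_one])⟩
  have key : ∀ a b : SLn 6 F, MulAut.conj (pr (a * b⁻¹)) ∈ E → MulAut.conj (pr (a * b⁻¹)) ≠ 1 →
      (a.1 - b.1).det = 0 → Lo 3 E (2 * r + 1) := fun a b h1 h2 h => by
    obtain ⟨φ, h0, e⟩ := exists_fixed h
    rw [← Psi_coe] at h1 h2
    exact ((le_lin (t := 3) (j := 1) (m := 16) (c := 9) (by omega) (by rw [hF]; unfold ExL; decide) Nat.prime_two
      (by omega) (by omega) h2 (hE.2 _ h1) h0 e (by rw [hF]; decide) (by omega)).lo h1).le (by omega)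
  obtain ⟨α, hα, α1⟩ := exists_ne_one (by omega) hc
  obtain ⟨β, hβ, β1⟩ := SetLike.not_le_iff_exists.1 (show ¬ E ≤ zpowers α from fun e => by
    have h5 := card_le_of_le e
    rw [hc, Nat.card_zpowers, orderOf_eq_prime (hE.2 α hα) α1] at h5
    exact absurd (Nat.pow_le_pow_right (by omega) hr |>.trans h5) (by decide))
  have β0 : β ≠ 1 := fun e => β1 (e ▸ one_mem _)
  obtain ⟨a, rfl, a3⟩ := lift α hα α1
  obtain ⟨b, rfl, b3⟩ := lift β hβ β0
  by_contra h
  refine β1 ⟨(2 : ℕ), ?_⟩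
  have hab : a * b = b * a := hi ((injective_iff_map_eq_one _).2 (fun x hx => (conj_eq_one_iff hZ).1 hx)
    (by simpa only [map_mul] using elemAb_comm hE hα hβ))
  have e := det_three (a := a.1) (b := b.1) (congrArg Subtype.val a3) (congrArg Subtype.val b3)
    (congrArg Subtype.val hab) (fun e => h (key a 1 (by rwa [inv_one, mul_one]) (by rwa [inv_one, mul_one]) e))
    (fun e => h (key b 1 (by rwa [inv_one, mul_one]) (by rwa [inv_one, mul_one]) e))
    (fun e => h (key a b (by rw [map_mul, map_mul, map_inv, map_inv]; exact mul_mem hα (inv_mem hβ)) (fun e' => β1 (by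
      rw [map_mul, map_mul, map_inv, map_inv, mul_inv_eq_one] at e'
      exact e' ▸ mem_zpowers _)) e))
  show _ ^ ((2 : ℕ) : ℤ) = _
  rw [zpow_natCast, ← map_pow, ← map_pow, show a ^ 2 = b from Subtype.ext e.symm]

end Cfsg.Agent.TwoF.XL
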